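/-
An involution centralizer mapping onto GL(2,3) with kernel of odd order: the special classes, the
induced virtual characters and the averaged tables.
-/
import Cfsg.Agent.Lib.Involutions.GLTwoThree.Decompose

set_option autoImplicit false
set_option linter.unusedSectionVars false

open Cfsg
open CfsgLib.CharTheory CfsgLib.Involutions CfsgLib.Involutions.GLTwoThree
open scoped ComplexConjugate

namespace CfsgLib.SubdegreeThree

universe u

variable {G : Type u} [Group G] [Fintype G] {t : G}

/-- A map of the centralizer of `t` onto GL(2,3) with kernel of odd order. -/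
structure Cover (t : G) where
  π : Subgroup.centralizer ({t} : Set G) →* GLTwoThree.M
  surj : Function.Surjective π
  odd : Odd (Nat.card π.ker)

namespace Cover

variable (e : Cover t)

theorem eq_one_of_sq {x : Subgroup.centralizer ({t} : Set G)} (hx : x ∈ e.π.ker)
    (h : x * x = 1) : x = 1 := by
  have h1 : orderOf x ∣ 2 := orderOf_dvd_of_pow_eq_one (by rwa [pow_two])
  have h2 : orderOf x ∣ Nat.card e.π.ker := Subgroup.orderOf_dvd_natCard _ hx
  rw [← orderOf_eq_one_iff]
  exact Nat.eq_one_of_dvd_coprimes (Nat.coprime_two_left.2 e.odd) h1 h2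

theorem t_image (ht : orderOf t = 2) (h : t ∈ Subgroup.centralizer ({t} : Set G)) :
    e.π ⟨t, h⟩ = negI := by
  refine eq_negI_of_central (fun x => ?_) fun h1 => ?_
  · obtain ⟨y, rfl⟩ := e.surj x
    rw [← map_mul, ← map_mul]
    exact congrArg e.π (Subtype.ext (Subgroup.mem_centralizer_singleton_iff.1 y.2).symm)
  · exact ne_one ht (congrArg Subtype.val (e.eq_one_of_sq (MonoidHom.mem_ker.2 h1)
      (Subtype.ext (mul_self_eq_one ht))))

theorem mem_special_iff (ht : orderOf t = 2) (h : Subgroup.centralizer ({t} : Set G)) :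
    (h : G) ∈ special t ↔ inD (cls (e.π h)) = true := by
  have htC : t ∈ Subgroup.centralizer ({t} : Set G) := Subgroup.mem_centralizer_singleton_iff.2 rfl
  constructor
  · intro hg
    obtain ⟨k, hk⟩ := (Submonoid.mem_powers_iff _ _).1 (mem_powers_iff_mem_zpowers.2 hg)
    refine inD_of_pow (k := k) ?_
    rw [← map_pow, ← e.t_image ht htC]
    exact congrArg e.π (Subtype.ext hk)
  · intro hD
    obtain ⟨k, hk⟩ := exists_pow_of_inD hD
    rw [← map_pow, ← e.t_image ht htC] at hk
    set w : Subgroup.centralizer ({t} : Set G) := ⟨t, htC⟩ with hw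
    have hker : w⁻¹ * h ^ k ∈ e.π.ker := by
      rw [MonoidHom.mem_ker, map_mul, map_inv, hk, inv_mul_cancel]
    have hcomm : Commute w (w⁻¹ * h ^ k) := by
      refine Commute.mul_right (Commute.inv_right (Commute.refl w)) ?_
      exact Subtype.ext ((Subgroup.mem_centralizer_singleton_iff.1 (h ^ k).2).symm)
    set n := orderOf (w⁻¹ * h ^ k) with hn
    have hnodd : Odd n := e.odd.of_dvd_nat (Subgroup.orderOf_dvd_natCard _ hker)
    have hpow : (h ^ k) ^ n = w := by
      have h1 : (w * (w⁻¹ * h ^ k)) ^ n = w ^ n := by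
        rw [hcomm.mul_pow, hn, pow_orderOf_eq_one, mul_one]
      rw [mul_inv_cancel_left] at h1
      rw [h1]
      obtain ⟨m, hm⟩ := hnodd
      have hw2 : w ^ 2 = 1 := Subtype.ext (by
        rw [SubmonoidClass.coe_pow, pow_two]; exact mul_self_eq_one ht)
      rw [hm, pow_succ, pow_mul, hw2, one_pow, one_mul]
    have h3 := congrArg Subtype.val hpow
    rw [SubgroupClass.coe_pow, SubgroupClass.coe_pow, ← pow_mul] at h3
    exact Subgroup.mem_zpowers_iff.2 ⟨((k * n : ℕ) : ℤ), by rw [zpow_natCast]; exact h3⟩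

/-- A section of the cover. -/
noncomputable def sec (m : GLTwoThree.M) : Subgroup.centralizer ({t} : Set G) :=
  Function.surjInv e.surj m

theorem π_sec (m : GLTwoThree.M) : e.π (e.sec m) = m := Function.surjInv_eq e.surj m

/-- The centralizer as pairs. -/
noncomputable def split : GLTwoThree.M × e.π.ker ≃ Subgroup.centralizer ({t} : Set G) where
  toFun p := (p.2 : Subgroup.centralizer ({t} : Set G)) * e.sec p.1
  invFun h := (e.π h, ⟨h * (e.sec (e.π h))⁻¹, by
    rw [MonoidHom.mem_ker, map_mul, map_inv, e.π_sec, mul_inv_cancel]⟩)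
  left_inv p := by
    have h1 : e.π ((p.2 : Subgroup.centralizer ({t} : Set G)) * e.sec p.1) = p.1 := by
      rw [map_mul, MonoidHom.mem_ker.1 p.2.2, one_mul, e.π_sec]
    refine Prod.ext h1 (Subtype.ext ?_)
    show (p.2 : Subgroup.centralizer ({t} : Set G)) * e.sec p.1 * (e.sec _)⁻¹ = _
    rw [h1, mul_inv_cancel_right]
  right_inv h := by simp

theorem π_split (p : GLTwoThree.M × e.π.ker) : e.π (e.split p) = p.1 :=
  congrArg Prod.fst (e.split.symm_apply_apply p)

theorem card_eq : Nat.card (Subgroup.centralizer ({t} : Set G)) = 48 * Nat.card e.π.ker := by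
  rw [← Nat.card_congr e.split, Nat.card_prod, card_M]

theorem sum_split [Fintype (Subgroup.centralizer ({t} : Set G))] [Fintype e.π.ker]
    (F : Subgroup.centralizer ({t} : Set G) → ℂ) :
    ∑ h, F h = ∑ m : GLTwoThree.M, ∑ o : e.π.ker,
      F ((o : Subgroup.centralizer ({t} : Set G)) * e.sec m) := by
  rw [← Fintype.sum_prod_type']
  exact (Fintype.sum_equiv e.split _ _ fun p => rfl).symm

theorem sum_image [Fintype (Subgroup.centralizer ({t} : Set G))] (F : GLTwoThree.M → ℂ) :
    ∑ h, F (e.π h) = (Nat.card e.π.ker : ℂ) * ∑ m : GLTwoThree.M, F m := by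
  classical
  haveI := Fintype.ofFinite e.π.ker
  rw [e.sum_split, Finset.mul_sum]
  refine Finset.sum_congr rfl fun m _ => ?_
  rw [Finset.sum_congr rfl (g := fun _ => F m) fun o _ => by
    rw [map_mul, MonoidHom.mem_ker.1 o.2, one_mul, e.π_sec], Finset.sum_const, Finset.card_univ,
    nsmul_eq_mul, Nat.card_eq_fintype_card]

theorem sum_cls (F : Fin 8 → ℂ) :
    ∑ m : GLTwoThree.M, F (cls m) = ∑ k : Fin 8, ((![1, 1, 12, 8, 6, 8, 6, 6] k : ℕ) : ℂ) * F k := by
  rw [Fintype.sum_equiv idxEquiv (fun m => F (cls m)) (fun i => F (clsI i)) (fun m => rfl),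
    ← Finset.sum_fiberwise Finset.univ clsI]
  refine Finset.sum_congr rfl fun k _ => ?_
  rw [Finset.sum_congr rfl (g := fun _ => F k) fun i hi => by rw [(Finset.mem_filter.1 hi).2],
    Finset.sum_const, card_clsI, nsmul_eq_mul]

theorem inner_tab [Fintype (Subgroup.centralizer ({t} : Set G))] (v w : Fin 8 → R) {n : ℤ}
    (h : ∑ i : Idx, v (clsI i) * star (w (clsI i)) = ⟨48 * n, 0⟩) :
    classInner (fun h : Subgroup.centralizer ({t} : Set G) => toC (v (cls (e.π h))))
      (fun h => toC (w (cls (e.π h)))) = n := by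
  have hs : ∑ m : GLTwoThree.M, toC (v (cls m)) * conj (toC (w (cls m))) =
      toC (∑ i : Idx, v (clsI i) * star (w (clsI i))) := by
    rw [map_sum]
    refine Fintype.sum_equiv idxEquiv _ _ fun m => ?_
    rw [map_mul, conj_toC]
    rfl
  rw [classInner, e.sum_image fun m => toC (v (cls m)) * conj (toC (w (cls m))), hs, h, e.card_eq,
    toC_int]
  have hN : (Nat.card e.π.ker : ℂ) ≠ 0 := Nat.cast_ne_zero.2 Nat.card_pos.ne'
  push_cast
  field_simp

/-- The induced virtual characters. -/
noncomputable def phi (i : Fin 5) : G → ℂ :=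
  indFun (Subgroup.centralizer ({t} : Set G)) fun h => toC (gTab i (cls (e.π h)))

theorem isClassFunction_tab (v : Fin 8 → R) :
    IsClassFunction (Subgroup.centralizer ({t} : Set G)) fun h => toC (v (cls (e.π h))) :=
  fun g h => by
  show toC (v (cls (e.π (h * g * h⁻¹)))) = _
  rw [map_mul, map_mul, map_inv, cls_conj]

theorem gen_phi (i : Fin 5) : IsGeneralizedCharacter G (e.phi i) :=
  CfsgLib.Frobenius.isGeneralizedCharacter_indFun _ _
    (CfsgLib.Coherence.isGeneralizedCharacter_comp (gen_gTab i) e.π)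

theorem gTab_vanish (ht : orderOf t = 2) (i : Fin 5) (h : Subgroup.centralizer ({t} : Set G))
    (hh : (h : G) ∉ special t) : toC (gTab i (cls (e.π h))) = 0 := by
  rw [gTab_off i _ (Bool.eq_false_iff.2 fun h' => hh ((e.mem_special_iff ht h).2 h')), map_zero]

theorem gTab_apply_one (i : Fin 5) :
    toC (gTab i (cls (e.π (1 : Subgroup.centralizer ({t} : Set G))))) = 0 := by
  rw [map_one, show cls (1 : GLTwoThree.M) = 0 by rw [cls, idx_one, clsI_zero.1], gTab_off i 0 rfl,
    map_zero]

theorem phi_inner (ht : orderOf t = 2) (i j : Fin 5) :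
    classInner (e.phi i) (e.phi j) = ((![![2, 1, -1, -1, 0], ![1, 2, 0, 0, 0], ![-1, 0, 3, 1, -1],
      ![-1, 0, 1, 3, 1], ![0, 0, -1, 1, 3]] i j : ℤ) : ℂ) := by
  classical
  haveI := Fintype.ofFinite (Subgroup.centralizer ({t} : Set G))
  rw [phi, phi, CfsgLib.Frobenius.classInner_indFun_indFun_of_ti _ (special t) (special_ti ht) _ _
    (e.isClassFunction_tab _) (e.gTab_vanish ht i) (e.gTab_vanish ht j) (e.gTab_apply_one j)]
  exact e.inner_tab _ _ (gTab_inner i j)

theorem phi_one (i : Fin 5) : e.phi i 1 = 0 := by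
  rw [phi, CfsgLib.Frobenius.indFun_one, e.gTab_apply_one, mul_zero]

theorem phi_inner_one (i : Fin 5) :
    classInner (e.phi i) (fun _ => (1 : ℂ)) = ((![0, 0, 1, 0, -1] i : ℤ) : ℂ) := by
  classical
  haveI := Fintype.ofFinite (Subgroup.centralizer ({t} : Set G))
  rw [phi, CfsgLib.Frobenius.classInner_indFun _ _ _ (fun _ _ => rfl)]
  have h1 : (fun _ : Subgroup.centralizer ({t} : Set G) => (1 : ℂ)) =
      fun h => toC (irrTab 0 (cls (e.π h))) := funext fun h => by
    have : ∀ k, irrTab 0 k = 1 := by decide +kernel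
    rw [this, map_one]
  rw [h1, e.inner_tab _ _ (gTab_irrTab i 0)]
  fin_cases i <;> rfl

/-- The sum over a coset of the kernel of a class function whose inner products with the induced
characters are those of a table. -/
theorem sum_coset_special (ht : orderOf t = 2) [Fintype e.π.ker] {φ : G → ℂ}
    (hφ : IsClassFunction G φ) (v : Fin 8 → R) (n : Fin 5 → ℤ)
    (hv : ∀ i, ∑ x : Idx, gTab i (clsI x) * star (v (clsI x)) = ⟨48 * n i, 0⟩)
    (hn : ∀ i, classInner (e.phi i) φ = n i) (h : Subgroup.centralizer ({t} : Set G))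
    (hh : (h : G) ∈ special t) :
    ∑ o : e.π.ker, φ ((o : Subgroup.centralizer ({t} : Set G)) * h) =
      (Nat.card e.π.ker : ℂ) * toC (v (cls (e.π h))) := by
  classical
  haveI := Fintype.ofFinite (Subgroup.centralizer ({t} : Set G))
  let A : Subgroup.centralizer ({t} : Set G) → ℂ := fun x =>
    ∑ o : e.π.ker, φ ((o : Subgroup.centralizer ({t} : Set G)) * x)
  have hA : ∀ x y, e.π x = e.π y → A x = A y := fun x y hxy => by
    have hm : x * y⁻¹ ∈ e.π.ker := by
      rw [MonoidHom.mem_ker, map_mul, map_inv, hxy, mul_inv_cancel]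
    refine Fintype.sum_equiv (Equiv.mulRight (⟨_, hm⟩ : e.π.ker)) _ _ fun o => ?_
    simp [mul_assoc]
  have hAc : ∀ x c, A (c * x * c⁻¹) = A x := fun x c => by
    have hker := MonoidHom.normal_ker e.π
    let E : e.π.ker ≃ e.π.ker :=
      ((MulAut.conjNormal (H := e.π.ker) c⁻¹).toEquiv)
    refine Fintype.sum_equiv E _ _ fun o => ?_
    have hE : ((E o : e.π.ker) : Subgroup.centralizer ({t} : Set G)) =
        c⁻¹ * (o : Subgroup.centralizer ({t} : Set G)) * c := by
      show ((MulAut.conjNormal c⁻¹ o : e.π.ker) : Subgroup.centralizer ({t} : Set G)) = _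
      rw [MulAut.conjNormal_apply, inv_inv]
    show φ _ = φ _
    rw [← hφ _ (c⁻¹ : G), hE]
    push_cast
    congr 1
    group
  let w : Fin 8 → ℂ := fun k => A (e.sec (el (repI k)))
  have hw : ∀ x, A x = w (cls (e.π x)) := by
    intro x
    obtain ⟨c, hc⟩ := exists_conj_rep (e.π x)
    show A x = A _
    rw [← hAc x (e.sec c)]
    exact hA _ _ (by rw [map_mul, map_mul, map_inv, e.π_sec, e.π_sec, hc])
  have hN : (Nat.card e.π.ker : ℂ) ≠ 0 := Nat.cast_ne_zero.2 Nat.card_pos.ne'
  have key := eq_zero_of_gTab (fun k => w k - (Nat.card e.π.ker : ℂ) * toC (v k)) (fun i => ?_) _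
    ((e.mem_special_iff ht h).1 hh)
  · show A h = _
    rw [hw]
    exact sub_eq_zero.1 key
  · have h1 := hn i
    rw [phi, CfsgLib.Frobenius.classInner_indFun _ _ _ hφ] at h1
    have h2 := e.inner_tab _ _ (hv i)
    have hs : ∑ x : Subgroup.centralizer ({t} : Set G),
        toC (gTab i (cls (e.π x))) * conj (φ x) =
        ∑ m : GLTwoThree.M, toC (gTab i (cls m)) * conj (w (cls m)) := by
      rw [e.sum_split]
      refine Finset.sum_congr rfl fun m _ => ?_
      have hwm : w (cls m) = A (e.sec m) := by rw [hw, e.π_sec]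
      rw [hwm, map_sum, Finset.mul_sum]
      refine Finset.sum_congr rfl fun o _ => ?_
      rw [map_mul e.π, MonoidHom.mem_ker.1 o.2, one_mul, e.π_sec, Subgroup.coe_mul]
    have hs2 : ∑ x : Subgroup.centralizer ({t} : Set G),
        toC (gTab i (cls (e.π x))) * conj (toC (v (cls (e.π x)))) =
        (Nat.card e.π.ker : ℂ) * ∑ m : GLTwoThree.M, toC (gTab i (cls m)) * conj (toC (v (cls m))) :=
      e.sum_image fun m => toC (gTab i (cls m)) * conj (toC (v (cls m)))
    rw [← sum_cls fun k => toC (gTab i k) * conj (w k - (Nat.card e.π.ker : ℂ) * toC (v k))]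
    simp only [map_sub, map_mul, map_natCast, mul_sub, Finset.sum_sub_distrib]
    simp only [classInner] at h1 h2
    rw [hs] at h1
    rw [hs2] at h2
    have hC : ((Nat.card (Subgroup.centralizer ({t} : Set G)) : ℕ) : ℂ)⁻¹ ≠ 0 :=
      inv_ne_zero (Nat.cast_ne_zero.2 Nat.card_pos.ne')
    have h3 := mul_left_cancel₀ hC (h1.trans h2.symm)
    rw [h3, Finset.mul_sum, ← Finset.sum_sub_distrib]
    exact Finset.sum_eq_zero fun m _ => by ring

end Cover

end CfsgLib.SubdegreeThree
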