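/-
The eight exceptional characters of a covered involution centralizer, with their values.
-/
import Cfsg.Agent.Lib.SubdegreeThree.Cover

set_option autoImplicit false
set_option linter.unusedSectionVars false

open Cfsg
open CfsgLib.CharTheory CfsgLib.Involutions CfsgLib.Involutions.GLTwoThree
open scoped ComplexConjugate

namespace CfsgLib.SubdegreeThree

universe u

variable {G : Type u} [Group G] [Fintype G] {t : G} (e : Cover t)

theorem exists_three (ht : orderOf t = 2) :
    ∃ f : Fin 4 → G → ℂ, Signed f ∧ f 0 = (fun _ => 1) ∧ Cover.phi e 0 = f 1 - f 2 ∧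
      Cover.phi e 1 = f 1 - f 3 := by
  let τ : Fin 3 → G → ℂ := ![0, -Cover.phi e 0, -Cover.phi e 1]
  obtain ⟨ε, hε, μ, hμ, hμi, hτ⟩ := CfsgLib.Frobenius.exists_irr_family (0 : Fin 3) τ rfl
    (fun i => by
      fin_cases i
      exacts [CfsgLib.Coherence.isGeneralizedCharacter_zero,
        CfsgLib.Coherence.isGeneralizedCharacter_neg (Cover.gen_phi e 0),
        CfsgLib.Coherence.isGeneralizedCharacter_neg (Cover.gen_phi e 1)])
    (fun i => by fin_cases i <;> simp [τ, Cover.phi_one])
    (fun i hi => by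
      fin_cases i
      · exact absurd rfl hi
      · show classInner (-Cover.phi e 0) (-Cover.phi e 0) = 2
        rw [CfsgLib.Coherence.inner_neg_left, CfsgLib.Coherence.inner_neg_right, neg_neg,
          Cover.phi_inner e ht]
        norm_num
      · show classInner (-Cover.phi e 1) (-Cover.phi e 1) = 2
        rw [CfsgLib.Coherence.inner_neg_left, CfsgLib.Coherence.inner_neg_right, neg_neg,
          Cover.phi_inner e ht]
        norm_num)
    (fun i j hi hj hij => by
      fin_cases i <;> fin_cases j
      all_goals first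
        | exact absurd rfl hi
        | exact absurd rfl hj
        | exact absurd rfl hij
        | (show classInner (-Cover.phi e _) (-Cover.phi e _) = 1
           rw [CfsgLib.Coherence.inner_neg_left, CfsgLib.Coherence.inner_neg_right, neg_neg,
            Cover.phi_inner e ht]
           norm_num))
  have hirr : ∀ i, IsIrrCharacter G (ε • μ i) ∨ IsIrrCharacter G (-(ε • μ i)) := by
    intro i
    rcases hε with rfl | rfl
    · left; rw [one_smul]; exact hμ i
    · right; rw [neg_smul, one_smul, neg_neg]; exact hμ i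
  have hεε : ε * conj ε = 1 := by rcases hε with rfl | rfl <;> simp
  have horth : ∀ i j, classInner (ε • μ i) (ε • μ j) = if i = j then 1 else 0 := by
    intro i j
    rw [classInner_smul_left, classInner_smul_right, ← mul_assoc, hεε, one_mul,
      classInner_irr (hμ i) (hμ j)]
    simp [hμi.eq_iff]
  have e0 : Cover.phi e 0 = ε • μ 0 - ε • μ 1 := by
    have := hτ 1
    simp only [τ, Matrix.cons_val_one, Matrix.cons_val_zero, smul_sub] at this
    rw [← neg_neg (Cover.phi e 0), this, neg_sub]
  have e1 : Cover.phi e 1 = ε • μ 0 - ε • μ 2 := by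
    have := hτ 2
    simp only [τ, Matrix.cons_val, smul_sub] at this
    rw [← neg_neg (Cover.phi e 1), this, neg_sub]
  have h1 : ∀ i, classInner (fun _ => (1 : ℂ)) (ε • μ i) = 0 := by
    intro i
    have hz : ∀ j, classInner (ε • μ j) (fun _ => (1 : ℂ)) = classInner (ε • μ 0) fun _ => (1 : ℂ) := by
      intro j
      have p0 := Cover.phi_inner_one e 0
      have p1 := Cover.phi_inner_one e 1
      rw [e0, classInner_sub_left] at p0
      rw [e1, classInner_sub_left] at p1
      simp only [Matrix.cons_val_zero, Matrix.cons_val_one, Int.cast_zero] at p0 p1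
      fin_cases j
      · rfl
      · exact (sub_eq_zero.1 p0).symm
      · exact (sub_eq_zero.1 p1).symm
    rw [classInner_conj_symm, hz]
    have hb : classInner (ε • μ 0) (fun _ => (1 : ℂ)) = 0 := by
      by_contra hne
      have hall : ∀ j, μ j = fun _ => (1 : ℂ) := fun j => by
        by_contra hj
        refine hne ?_
        rw [← hz j, classInner_smul_left, classInner_eq_zero_of_ne (hμ j) isIrrCharacter_one hj,
          mul_zero]
      exact absurd (hμi ((hall 0).trans (hall 1).symm)) (by decide)
    rw [hb, map_zero]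
  refine ⟨![fun _ => 1, ε • μ 0, ε • μ 1, ε • μ 2], ⟨fun i => ?_, fun i j => ?_⟩, rfl, e0, e1⟩
  · fin_cases i
    exacts [Or.inl isIrrCharacter_one, hirr 0, hirr 1, hirr 2]
  · have h1' : ∀ i, classInner (ε • μ i) (fun _ => (1 : ℂ)) = 0 := fun i => by
      rw [classInner_conj_symm, h1, map_zero]
    fin_cases i <;> fin_cases j <;>
      simp [horth, h1, h1', classInner_self_of_isIrr (isIrrCharacter_one (G := G))]

theorem exists_four (ht : orderOf t = 2) :
    ∃ f : Fin 5 → G → ℂ, Signed f ∧ f 0 = (fun _ => 1) ∧ Cover.phi e 0 = f 1 - f 2 ∧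
      Cover.phi e 1 = f 1 - f 3 ∧ Cover.phi e 2 = f 0 + f 2 + f 4 ∧
      ∃ a : ℤ, f 1 1 = a ∧ f 2 1 = a ∧ f 3 1 = a ∧ f 4 1 = (-1 - a : ℤ) := by
  obtain ⟨f, hf, f0, p0, p1⟩ := exists_three e ht
  obtain ⟨a, -, ha⟩ := exists_int_one (hf.irr 1)
  have hb : f 2 1 = a := by
    have := congrFun p0 1
    rw [Cover.phi_one, Pi.sub_apply, ha] at this
    exact (sub_eq_zero.1 this.symm).symm
  have hc : f 3 1 = a := by
    have := congrFun p1 1
    rw [Cover.phi_one, Pi.sub_apply, ha] at this
    exact (sub_eq_zero.1 this.symm).symm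
  obtain ⟨k, hk⟩ := exists_classInner_eq_int (Cover.gen_phi e 2)
    (CfsgLib.Coherence.signed_isGeneralized (hf.irr 1))
  have c0 : classInner (Cover.phi e 2) (f 0) = 1 := by
    rw [f0, Cover.phi_inner_one]; simp
  have c2 : classInner (Cover.phi e 2) (f 2) = ((k + 1 : ℤ) : ℂ) := by
    have := Cover.phi_inner e ht 2 0
    rw [p0, classInner_sub_right, hk] at this
    simp at this
    push_cast
    linear_combination -this
  have c3 : classInner (Cover.phi e 2) (f 3) = (k : ℂ) := by
    have := Cover.phi_inner e ht 2 1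
    rw [p1, classInner_sub_right, hk] at this
    simp at this
    linear_combination -this
  obtain ⟨R, hR, hRg, hRo, hRn, hle⟩ := residual f hf.irr hf.orth (Cover.gen_phi e 2) (n := 3)
    (by rw [Cover.phi_inner e ht]; simp) ![1, k, k + 1, k]
    (fun i => by
      fin_cases i
      · simpa using c0
      · exact hk
      · exact c2
      · simpa using c3)
  simp [Fin.sum_univ_four] at hR hRn hle
  have hk0 : k = 0 := by
    have h1 : -1 ≤ k := by nlinarith
    have h2 : k ≤ 0 := by nlinarith
    rcases (show k = -1 ∨ k = 0 by omega) with rfl | h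
    swap; · exact h
    exfalso
    norm_num at hRn
    have h0 := congrFun hR 1
    rw [eq_zero_of_norm_zero hRg hRn, Cover.phi_one] at h0
    simp [f0, ha, hc] at h0
    have : (2 * a : ℤ) = 1 := by
      exact_mod_cast (show (2 * a : ℂ) = 1 by linear_combination h0)
    omega
  subst hk0
  norm_num at hRn hR
  have hRs := signed_of_norm_one hRg hRn
  refine ⟨Fin.snoc f R, hf.snoc hRs hRo, f0, p0, p1, hR.trans ?_, a, ha, hb, hc, ?_⟩
  · rfl
  · show R 1 = _
    have h0 := congrFun hR 1
    rw [Cover.phi_one] at h0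
    simp [f0, hb] at h0
    push_cast
    linear_combination -h0

theorem exists_six (ht : orderOf t = 2) :
    ∃ f : Fin 5 → G → ℂ, ∃ Y Z : G → ℂ, Signed f ∧ f 0 = (fun _ => 1) ∧ Cover.phi e 0 = f 1 - f 2 ∧
      Cover.phi e 1 = f 1 - f 3 ∧ Cover.phi e 2 = f 0 + f 2 + f 4 ∧ Cover.phi e 3 = f 2 + Y + Z ∧
      Signed (Fin.snoc (Fin.snoc f Y) Z : Fin 7 → G → ℂ) ∧
      ∃ a y : ℤ, f 1 1 = a ∧ f 2 1 = a ∧ f 3 1 = a ∧ f 4 1 = (-1 - a : ℤ) ∧ Y 1 = y ∧
        Z 1 = (-a - y : ℤ) := by
  classical
  obtain ⟨f, hf, f0, p0, p1, p2, a, ha, hb, hc, hd⟩ := exists_four e ht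
  obtain ⟨k, hk⟩ := exists_classInner_eq_int (Cover.gen_phi e 3)
    (CfsgLib.Coherence.signed_isGeneralized (hf.irr 1))
  have c0 : classInner (Cover.phi e 3) (f 0) = 0 := by
    rw [f0, Cover.phi_inner_one]; simp
  have c2 : classInner (Cover.phi e 3) (f 2) = ((k + 1 : ℤ) : ℂ) := by
    have := Cover.phi_inner e ht 3 0
    rw [p0, classInner_sub_right, hk] at this
    simp at this
    push_cast
    linear_combination -this
  have c3 : classInner (Cover.phi e 3) (f 3) = (k : ℂ) := by
    have := Cover.phi_inner e ht 3 1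
    rw [p1, classInner_sub_right, hk] at this
    simp at this
    linear_combination -this
  have c4 : classInner (Cover.phi e 3) (f 4) = ((-k : ℤ) : ℂ) := by
    have := Cover.phi_inner e ht 3 2
    rw [p2, classInner_add_right, classInner_add_right, c0, c2] at this
    simp at this
    push_cast
    linear_combination this
  obtain ⟨R, hR, hRg, hRo, hRn, hle⟩ := residual f hf.irr hf.orth (Cover.gen_phi e 3) (n := 3)
    (by rw [Cover.phi_inner e ht]; simp) ![0, k, k + 1, k, -k]
    (fun i => by
      fin_cases i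
      · simpa using c0
      · exact hk
      · exact c2
      · simpa using c3
      · exact c4)
  simp [Fin.sum_univ_five] at hR hRn hle
  have hk0 : k = 0 := by
    have h1 : -1 ≤ k := by nlinarith
    have h2 : k ≤ 0 := by nlinarith
    rcases (show k = -1 ∨ k = 0 by omega) with rfl | h
    swap; · exact h
    exfalso
    norm_num at hRn
    have h0 := congrFun hR 1
    rw [eq_zero_of_norm_zero hRg hRn, Cover.phi_one] at h0
    simp [ha, hc, hd] at h0
    have : (3 * a : ℤ) = -1 := by
      exact_mod_cast (show (3 * a : ℂ) = -1 by linear_combination h0)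
    omega
  subst hk0
  norm_num at hRn hR
  obtain ⟨s, hs, hsum, hsg, hso⟩ := CfsgLib.Coherence.exists_signed_decomp hRg (k := 2)
    (by norm_num) (by rw [hRn]; norm_num)
  obtain ⟨Y, Z, hYZ, rfl⟩ := Finset.card_eq_two.1 hs
  rw [Finset.sum_pair hYZ] at hsum
  have hoY : ∀ i, classInner Y (f i) = 0 ∧ classInner Z (f i) = 0 := by
    intro i
    have h0 : classInner Y (f i) + classInner Z (f i) = 0 := by
      rw [← classInner_add_left, ← hsum, hRo]
    rcases CfsgLib.Coherence.signed_inner (hsg Y (by simp)) (hf.irr i) with h | ⟨e1, h⟩ | ⟨e1, h⟩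
    · exact ⟨h, by rw [h, zero_add] at h0; exact h0⟩
    all_goals
      exfalso
      have hzy : classInner Z Y = 0 := by rw [hso Z (by simp) Y (by simp), if_neg hYZ.symm]
      rw [h, e1] at h0
      simp [CfsgLib.Coherence.inner_neg_right, hzy] at h0
  have hYs := hf.snoc (hsg Y (by simp)) fun i => (hoY i).1
  have hZs := hYs.snoc (hsg Z (by simp)) fun i => by
    induction i using Fin.lastCases with
    | last => rw [Fin.snoc_last, hso Z (by simp) Y (by simp), if_neg hYZ.symm]
    | cast i => rw [Fin.snoc_castSucc]; exact (hoY i).2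
  obtain ⟨y, -, hy⟩ := exists_int_one (hsg Y (by simp))
  refine ⟨f, Y, Z, hf, f0, p0, p1, p2, ?_, hZs, a, y, ha, hb, hc, hd, hy, ?_⟩
  · rw [hR, hsum, add_assoc]
  · have h0 := congrFun hR 1
    rw [Cover.phi_one, hsum] at h0
    simp [hb, hy] at h0
    push_cast
    linear_combination -h0

theorem exists_eight (ht : orderOf t = 2) :
    ∃ f : Fin 8 → G → ℂ, ∃ a y : ℤ, Signed f ∧ (∀ j, f j 1 = (degTab a y j : ℂ)) ∧
      ∀ i, Cover.phi e i = ∑ j, (coefTab i j : ℂ) • f j := by
  classical
  obtain ⟨f, Y₀, Z₀, hf, f0, p0, p1, p2, p3, hs, a, y₀, ha, hb, hc, hd, hy₀, hz₀⟩ := exists_six e ht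
  obtain ⟨k, hk⟩ := exists_classInner_eq_int (Cover.gen_phi e 4)
    (CfsgLib.Coherence.signed_isGeneralized (hf.irr 1))
  obtain ⟨p, hp⟩ := exists_classInner_eq_int (Cover.gen_phi e 4)
    (CfsgLib.Coherence.signed_isGeneralized (show IsIrrCharacter G Y₀ ∨ IsIrrCharacter G (-Y₀) from by
      have := hs.irr 5; exact this))
  obtain ⟨q, hq⟩ := exists_classInner_eq_int (Cover.gen_phi e 4)
    (CfsgLib.Coherence.signed_isGeneralized (show IsIrrCharacter G Z₀ ∨ IsIrrCharacter G (-Z₀) from by
      have := hs.irr 6; exact this))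
  have c0 : classInner (Cover.phi e 4) (f 0) = -1 := by
    rw [f0, Cover.phi_inner_one]; simp
  have c2 : classInner (Cover.phi e 4) (f 2) = (k : ℂ) := by
    have := Cover.phi_inner e ht 4 0
    rw [p0, classInner_sub_right, hk] at this
    simp at this
    linear_combination -this
  have c3 : classInner (Cover.phi e 4) (f 3) = (k : ℂ) := by
    have := Cover.phi_inner e ht 4 1
    rw [p1, classInner_sub_right, hk] at this
    simp at this
    linear_combination -this
  have c4 : classInner (Cover.phi e 4) (f 4) = ((-k : ℤ) : ℂ) := by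
    have := Cover.phi_inner e ht 4 2
    rw [p2, classInner_add_right, classInner_add_right, c0, c2] at this
    simp at this
    push_cast
    linear_combination this
  have hsum : k + p + q = 1 := by
    have := Cover.phi_inner e ht 4 3
    rw [p3, classInner_add_right, classInner_add_right, c2, hp, hq] at this
    simp at this
    exact_mod_cast (show ((k : ℂ) + p + q) = 1 from this)
  obtain ⟨R, hR, hRg, hRo, hRn, hle⟩ := residual _ hs.irr hs.orth (Cover.gen_phi e 4) (n := 3)
    (by rw [Cover.phi_inner e ht]; simp) ![-1, k, k, k, -k, p, q]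
    (fun i => by
      fin_cases i
      · show classInner (Cover.phi e 4) (f 0) = ((-1 : ℤ) : ℂ)
        simpa using c0
      · exact hk
      · exact c2
      · exact c3
      · exact c4
      · exact hp
      · exact hq)
  simp [Fin.sum_univ_seven] at hle
  have hk0 : k = 0 := by
    have h1 : 4 * (k * k) ≤ 2 := by nlinarith [mul_self_nonneg p, mul_self_nonneg q]
    nlinarith
  subst hk0
  have hpq : (p = 1 ∧ q = 0) ∨ (p = 0 ∧ q = 1) := by
    have hq' : q = 1 - p := by omega
    subst hq'
    have h1 : p ≤ 1 := by nlinarith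
    have h2 : 0 ≤ p := by nlinarith
    omega
  have hn : classInner R R = 1 := by
    rw [hRn]
    rcases hpq with ⟨rfl, rfl⟩ | ⟨rfl, rfl⟩ <;> simp [Fin.sum_univ_seven]
  have hsR := hs.snoc (signed_of_norm_one hRg hn) hRo
  rw [Fin.sum_univ_seven] at hR
  rcases hpq with ⟨rfl, rfl⟩ | ⟨rfl, rfl⟩
  · refine ⟨Fin.snoc (Fin.snoc (Fin.snoc f Y₀) Z₀) R, a, y₀, hsR, fun j => ?_, fun i => ?_⟩
    · fin_cases j
      · show f 0 1 = _
        simp [f0, degTab]
      · exact ha
      · exact hb
      · exact hc
      · exact hd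
      · exact hy₀
      · exact hz₀
      · show R 1 = _
        have h0 := congrFun hR 1
        have e5 : (Fin.snoc (Fin.snoc f Y₀) Z₀ : Fin 7 → G → ℂ) 5 = Y₀ := rfl
        have e0 : (Fin.snoc (Fin.snoc f Y₀) Z₀ : Fin 7 → G → ℂ) 0 = f 0 := rfl
        rw [Cover.phi_one] at h0
        simp [e5, e0, f0, hy₀] at h0
        simp [degTab]
        linear_combination -h0
    · fin_cases i
      · show Cover.phi e 0 = _
        rw [p0]; simp [Fin.sum_univ_eight, coefTab, sub_eq_add_neg]; rfl
      · show Cover.phi e 1 = _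
        rw [p1]; simp [Fin.sum_univ_eight, coefTab, sub_eq_add_neg]; rfl
      · show Cover.phi e 2 = _
        rw [p2]; simp [Fin.sum_univ_eight, coefTab]; rfl
      · show Cover.phi e 3 = _
        rw [p3]; simp [Fin.sum_univ_eight, coefTab]; rfl
      · show Cover.phi e 4 = _
        rw [hR]; simp [Fin.sum_univ_eight, coefTab]; rfl
  · -- the other labelling
    have hperm : Signed (Fin.snoc (Fin.snoc (Fin.snoc f Z₀) Y₀) R : Fin 8 → G → ℂ) := by
      have hσ : (Fin.snoc (Fin.snoc (Fin.snoc f Z₀) Y₀) R : Fin 8 → G → ℂ) =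
          (Fin.snoc (Fin.snoc (Fin.snoc f Y₀) Z₀) R : Fin 8 → G → ℂ) ∘ Equiv.swap 5 6 := by
        funext j
        fin_cases j <;> rfl
      rw [hσ]
      exact ⟨fun i => hsR.irr _, fun i j => by
        simp only [Function.comp_apply, hsR.orth]
        simp⟩
    refine ⟨Fin.snoc (Fin.snoc (Fin.snoc f Z₀) Y₀) R, a, -a - y₀, hperm, fun j => ?_, fun i => ?_⟩
    · fin_cases j
      · show f 0 1 = _
        simp [f0, degTab]
      · exact ha
      · exact hb
      · exact hc
      · exact hd
      · exact hz₀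
      · show Y₀ 1 = _
        simp [hy₀, degTab]
      · show R 1 = _
        have h0 := congrFun hR 1
        have e6 : (Fin.snoc (Fin.snoc f Y₀) Z₀ : Fin 7 → G → ℂ) 6 = Z₀ := rfl
        have e0 : (Fin.snoc (Fin.snoc f Y₀) Z₀ : Fin 7 → G → ℂ) 0 = f 0 := rfl
        rw [Cover.phi_one] at h0
        simp [e6, e0, f0, hz₀] at h0
        simp [degTab]
        linear_combination -h0
    · fin_cases i
      · show Cover.phi e 0 = _
        rw [p0]; simp [Fin.sum_univ_eight, coefTab, sub_eq_add_neg]; rfl
      · show Cover.phi e 1 = _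
        rw [p1]; simp [Fin.sum_univ_eight, coefTab, sub_eq_add_neg]; rfl
      · show Cover.phi e 2 = _
        rw [p2]; simp [Fin.sum_univ_eight, coefTab]; rfl
      · show Cover.phi e 3 = _
        rw [p3, add_right_comm]; simp [Fin.sum_univ_eight, coefTab]; rfl
      · show Cover.phi e 4 = _
        rw [hR]; simp [Fin.sum_univ_eight, coefTab]; rfl

/-- The exceptional characters: signed degrees, sums over the cosets of the kernel on the special
elements, and vanishing of the sums for all other irreducible characters. -/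
theorem exists_exceptional (ht : orderOf t = 2) [Fintype e.π.ker] :
    ∃ f : Fin 8 → G → ℂ, ∃ a y : ℤ, Signed f ∧ (∀ j, f j 1 = (degTab a y j : ℂ)) ∧
      (∀ (j : Fin 8) (h : Subgroup.centralizer ({t} : Set G)), (h : G) ∈ special t →
        ∑ o : e.π.ker, f j ((o : Subgroup.centralizer ({t} : Set G)) * h) =
          (Nat.card e.π.ker : ℂ) * toC (valTab j (cls (e.π h)))) ∧
      ∀ ψ : G → ℂ, IsIrrCharacter G ψ → (∀ j, classInner (f j) ψ = 0) →
        ∀ h : Subgroup.centralizer ({t} : Set G), (h : G) ∈ special t →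
          ∑ o : e.π.ker, ψ ((o : Subgroup.centralizer ({t} : Set G)) * h) = 0 := by
  obtain ⟨f, a, y, hs, hd, hphi⟩ := exists_eight e ht
  refine ⟨f, a, y, hs, hd, fun j h hh => ?_, fun ψ hψ ho h hh => ?_⟩
  · refine e.sum_coset_special ht (CfsgLib.Coherence.signed_isClassFunction (hs.irr j)) (valTab j)
      (fun i => coefTab i j) (fun i => gTab_valTab i j) (fun i => ?_) h hh
    rw [hphi, classInner_sum_left]
    simp [classInner_smul_left, hs.orth, Finset.sum_ite_eq']
  · have := e.sum_coset_special ht (IsIrrCharacter.isClassFunction hψ) 0 (fun _ => 0)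
      (fun i => by simp [Zsqrtd.ext_iff]) (fun i => by
        rw [hphi, classInner_sum_left]
        simp [classInner_smul_left, ho]) h hh
    simpa using this

end CfsgLib.SubdegreeThree
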