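/-
A covered involution centralizer with a self-centralizing four-group: the kernel is abelian, inverted
or centralized by each element, and the element of order eight is self-centralizing.
-/
import Cfsg.Agent.Lib.SubdegreeThree.Cover

set_option autoImplicit false
set_option linter.unusedSectionVars false

open Cfsg
open CfsgLib.Involutions CfsgLib.Involutions.GLTwoThree

namespace CfsgLib.SubdegreeThree

universe u

variable {G : Type u} [Group G] [Fintype G] {t : G}

theorem conj_refl_sign_six : ∀ i : Idx, clsI i = 6 → ∃ a b : Idx, clsI a = 2 ∧ clsI b = 2 ∧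
    clsI (mulI (invI (mulI a b)) i) = 2 := by decide +kernel

theorem quat_two_reflections : ∀ i : Idx, inQ i = true → i ≠ 0 →
    ∃ a : Idx, clsI a = 2 ∧ clsI (mulI (invI a) i) = 2 := by decide +kernel

theorem quat_special : ∀ i : Idx, inQ i = true → i ≠ 0 → inD (clsI i) = true := by decide +kernel

theorem card_commute_eight : (Finset.univ.filter fun j : Idx =>
    mulI j (repI 6) = mulI (repI 6) j).card = 8 := by decide +kernel

/-- A cover with a reflection whose joint centralizer with `t` has order four. -/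
structure FourData (t : G) where
  cover : Cover t
  ht : orderOf t = 2
  r : Subgroup.centralizer ({t} : Set G)
  hr : orderOf (r : G) = 2
  hr2 : cls (cover.π r) = 2
  hcard : Nat.card (Subgroup.centralizer ({t, (r : G)} : Set G)) = 4

namespace FourData

variable (D : FourData t)

theorem eq_one_of_fixed {o : Subgroup.centralizer ({t} : Set G)} (ho : o ∈ D.cover.π.ker)
    (hc : D.r * o * D.r⁻¹ = o) : o = 1 := by
  have hmem : (o : G) ∈ Subgroup.centralizer ({t, (D.r : G)} : Set G) := by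
    rw [Subgroup.mem_centralizer_iff]
    rintro x (rfl | rfl)
    · exact (Subgroup.mem_centralizer_singleton_iff.1 o.2).symm
    · exact congrArg Subtype.val (mul_inv_eq_iff_eq_mul.1 hc)
  have h1 : orderOf o ∣ 4 := by
    rw [← Subgroup.orderOf_coe, ← D.hcard]
    exact Subgroup.orderOf_dvd_natCard _ hmem
  have h2 : orderOf o ∣ Nat.card D.cover.π.ker := Subgroup.orderOf_dvd_natCard _ ho
  rw [← orderOf_eq_one_iff]
  refine Nat.eq_one_of_dvd_coprimes ?_ h1 h2
  exact Nat.Coprime.pow_left 2 (Nat.coprime_two_left.2 D.cover.odd)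

theorem r_inverts {o : Subgroup.centralizer ({t} : Set G)} (ho : o ∈ D.cover.π.ker) :
    D.r * o * D.r⁻¹ = o⁻¹ := by
  classical
  have hN := MonoidHom.normal_ker D.cover.π
  have hrr : D.r * D.r = 1 := by
    refine Subtype.ext ?_
    rw [Subgroup.coe_mul, mul_self_eq_one D.hr]
    rfl
  let F : D.cover.π.ker → D.cover.π.ker := fun a => ⟨(a : Subgroup.centralizer ({t} : Set G))⁻¹ *
    (D.r * a * D.r⁻¹), mul_mem (inv_mem a.2) (hN.conj_mem _ a.2 _)⟩
  have hF : Function.Injective F := by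
    intro a b h
    have h' : (a : Subgroup.centralizer ({t} : Set G))⁻¹ * (D.r * a * D.r⁻¹) =
      (b : Subgroup.centralizer ({t} : Set G))⁻¹ * (D.r * b * D.r⁻¹) := congrArg Subtype.val h
    have h3 : (b : Subgroup.centralizer ({t} : Set G)) * (a : Subgroup.centralizer ({t} : Set G))⁻¹
        = 1 := by
      refine D.eq_one_of_fixed (mul_mem b.2 (inv_mem a.2)) ?_
      have h4 : (b : Subgroup.centralizer ({t} : Set G)) *
          (a : Subgroup.centralizer ({t} : Set G))⁻¹ * (D.r * a * D.r⁻¹) = D.r * b * D.r⁻¹ := by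
        rw [mul_assoc, h', mul_inv_cancel_left]
      calc D.r * ((b : Subgroup.centralizer ({t} : Set G)) *
            (a : Subgroup.centralizer ({t} : Set G))⁻¹) * D.r⁻¹
          = (D.r * b * D.r⁻¹) * (D.r * a * D.r⁻¹)⁻¹ := by group
        _ = _ := by rw [← h4, mul_inv_cancel_right]
    exact Subtype.ext (mul_inv_eq_one.1 h3).symm
  obtain ⟨a, ha⟩ := (Finite.injective_iff_surjective.1 hF) ⟨o, ho⟩
  have ha' : (a : Subgroup.centralizer ({t} : Set G))⁻¹ * (D.r * a * D.r⁻¹) = o :=
    congrArg Subtype.val ha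
  have e : D.r⁻¹ = D.r := inv_eq_of_mul_eq_one_right hrr
  rw [← ha', e]
  calc D.r * ((a : Subgroup.centralizer ({t} : Set G))⁻¹ * (D.r * a * D.r)) * D.r
      = D.r * (a : Subgroup.centralizer ({t} : Set G))⁻¹ * D.r * a * (D.r * D.r) := by group
    _ = (D.r⁻¹ * (a : Subgroup.centralizer ({t} : Set G))⁻¹ * D.r⁻¹) * a := by
        rw [hrr, mul_one, e]
    _ = _ := by rw [e]; simp [mul_inv_rev, mul_assoc, e]

theorem ker_comm {a b : Subgroup.centralizer ({t} : Set G)} (ha : a ∈ D.cover.π.ker) (hb : b ∈ D.cover.π.ker) :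
    a * b = b * a := by
  have h1 := D.r_inverts (mul_mem ha hb)
  rw [show D.r * (a * b) * D.r⁻¹ = (D.r * a * D.r⁻¹) * (D.r * b * D.r⁻¹) by group,
    D.r_inverts ha, D.r_inverts hb, ← mul_inv_rev] at h1
  exact (inv_injective h1).symm

/-- Every lift of a reflection inverts the kernel. -/
theorem refl_inverts {x o : Subgroup.centralizer ({t} : Set G)} (hx : cls (D.cover.π x) = 2)
    (ho : o ∈ D.cover.π.ker) : x * o * x⁻¹ = o⁻¹ := by
  have hN := MonoidHom.normal_ker D.cover.π
  obtain ⟨c, hc⟩ := exists_conj_rep (D.cover.π x)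
  obtain ⟨d, hd⟩ := exists_conj_rep (D.cover.π D.r)
  rw [hx] at hc
  rw [D.hr2, ← hc] at hd
  set g := D.cover.sec (c⁻¹ * d) with hg
  have hk : x * (g * D.r * g⁻¹)⁻¹ ∈ D.cover.π.ker := by
    rw [MonoidHom.mem_ker, map_mul, map_inv, map_mul, map_mul, map_inv, hg, D.cover.π_sec,
      show c⁻¹ * d * D.cover.π D.r * (c⁻¹ * d)⁻¹ = c⁻¹ * (d * D.cover.π D.r * d⁻¹) * c by group, hd]
    group
  set y := g * D.r * g⁻¹ with hy
  have hyo : y * o * y⁻¹ = o⁻¹ := by
    have ho' : g⁻¹ * o * g ∈ D.cover.π.ker := by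
      have := hN.conj_mem _ ho g⁻¹
      rwa [inv_inv] at this
    have := D.r_inverts ho'
    calc y * o * y⁻¹ = g * (D.r * (g⁻¹ * o * g) * D.r⁻¹) * g⁻¹ := by rw [hy]; group
      _ = _ := by rw [this]; group
  calc x * o * x⁻¹ = (x * y⁻¹) * (y * o * y⁻¹) * (x * y⁻¹)⁻¹ := by group
    _ = (x * y⁻¹) * o⁻¹ * (x * y⁻¹)⁻¹ := by rw [hyo]
    _ = o⁻¹ := by rw [D.ker_comm hk (inv_mem ho), mul_inv_cancel_right]

/-- Lifts of elements of the quaternion subgroup centralize the kernel. -/
theorem quat_centralizes {x o : Subgroup.centralizer ({t} : Set G)} (hx : D.cover.π x ∈ quatQ)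
    (ho : o ∈ D.cover.π.ker) : x * o * x⁻¹ = o := by
  by_cases h0 : idx (D.cover.π x) = 0
  · have hxk : x ∈ D.cover.π.ker := by rw [MonoidHom.mem_ker, eq_iff, idx_one, h0]
    rw [D.ker_comm hxk ho, mul_inv_cancel_right]
  obtain ⟨a, ha, hb⟩ := quat_two_reflections _ hx h0
  set y := D.cover.sec (el a) with hy
  have hy2 : cls (D.cover.π y) = 2 := by rw [hy, D.cover.π_sec, cls, idx_el, ha]
  have hz2 : cls (D.cover.π (y⁻¹ * x)) = 2 := by
    rw [map_mul, map_inv, hy, D.cover.π_sec, cls, idx_mul, idx_inv, idx_el, hb]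
  calc x * o * x⁻¹ = y * ((y⁻¹ * x) * o * (y⁻¹ * x)⁻¹) * y⁻¹ := by group
    _ = y * o⁻¹ * y⁻¹ := by rw [D.refl_inverts hz2 ho]
    _ = o := by rw [D.refl_inverts hy2 (inv_mem ho), inv_inv]

/-- The lift of an element of order eight. -/
noncomputable def eight : Subgroup.centralizer ({t} : Set G) := D.cover.sec (el (repI 6))

theorem π_eight : D.cover.π D.eight = el (repI 6) := D.cover.π_sec _

theorem cls_eight : cls (D.cover.π D.eight) = 6 := by rw [D.π_eight, cls, idx_el, clsI_repI]

theorem eight_special : (D.eight : G) ∈ special t :=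
  (D.cover.mem_special_iff D.ht _).2 (by rw [D.cls_eight]; rfl)

theorem eight_inverts {o : Subgroup.centralizer ({t} : Set G)} (ho : o ∈ D.cover.π.ker) :
    D.eight * o * D.eight⁻¹ = o⁻¹ := by
  obtain ⟨a, b, ha, hb, hc⟩ := conj_refl_sign_six (repI 6) (clsI_repI 6)
  set x := D.cover.sec (el a) with hx
  set y := D.cover.sec (el b) with hy
  have hx2 : cls (D.cover.π x) = 2 := by rw [hx, D.cover.π_sec, cls, idx_el, ha]
  have hy2 : cls (D.cover.π y) = 2 := by rw [hy, D.cover.π_sec, cls, idx_el, hb]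
  have hz2 : cls (D.cover.π ((x * y)⁻¹ * D.eight)) = 2 := by
    rw [map_mul, map_inv, map_mul, hx, hy, D.cover.π_sec, D.cover.π_sec, D.π_eight, cls, idx_mul,
      idx_inv, idx_mul, idx_el, idx_el, idx_el, hc]
  calc D.eight * o * D.eight⁻¹
      = x * (y * (((x * y)⁻¹ * D.eight) * o * ((x * y)⁻¹ * D.eight)⁻¹) * y⁻¹) * x⁻¹ := by group
    _ = x * (y * o⁻¹ * y⁻¹) * x⁻¹ := by rw [D.refl_inverts hz2 ho]
    _ = o⁻¹ := by rw [D.refl_inverts hy2 (inv_mem ho), inv_inv, D.refl_inverts hx2 ho]

theorem exists_sqrt {o : Subgroup.centralizer ({t} : Set G)} (ho : o ∈ D.cover.π.ker) :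
    ∃ d ∈ D.cover.π.ker, d * d = o := by
  obtain ⟨k, hk⟩ := D.cover.odd.of_dvd_nat (Subgroup.orderOf_dvd_natCard D.cover.π.ker ho)
  refine ⟨o ^ (k + 1), pow_mem ho _, ?_⟩
  rw [← pow_add, show k + 1 + (k + 1) = orderOf o + 1 by omega, pow_succ, pow_orderOf_eq_one,
    one_mul]

theorem eight_coset {o : Subgroup.centralizer ({t} : Set G)} (ho : o ∈ D.cover.π.ker) :
    IsConj (D.eight : G) ((o * D.eight : Subgroup.centralizer ({t} : Set G)) : G) := by
  obtain ⟨d, hd, hdd⟩ := D.exists_sqrt ho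
  refine isConj_iff.2 ⟨(d : G), ?_⟩
  have h : d * D.eight * d⁻¹ = o * D.eight := by
    have h2 : D.eight * d⁻¹ = d * D.eight := by
      have := D.eight_inverts (inv_mem hd)
      rw [inv_inv] at this
      exact mul_inv_eq_iff_eq_mul.1 this
    rw [mul_assoc, h2, ← mul_assoc, hdd]
  exact congrArg Subtype.val h

theorem card_centralizer_eight :
    Nat.card (Subgroup.centralizer ({(D.eight : G)} : Set G)) ∣ 8 := by
  classical
  set Z := Subgroup.centralizer ({(D.eight : G)} : Set G) with hZ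
  have hle : Z ≤ Subgroup.centralizer ({t} : Set G) := fun g hg => by
    obtain ⟨k, hk⟩ := Subgroup.mem_zpowers_iff.1 D.eight_special
    rw [Subgroup.mem_centralizer_singleton_iff]
    rw [hZ, Subgroup.mem_centralizer_singleton_iff] at hg
    rw [← hk]
    exact (Commute.zpow_right hg k).eq
  let φ : Z →* GLTwoThree.M := D.cover.π.comp (Subgroup.inclusion hle)
  have hinj : Function.Injective φ := by
    rw [← MonoidHom.ker_eq_bot_iff, eq_bot_iff]
    intro z hz
    rw [MonoidHom.mem_ker] at hz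
    have hzk : Subgroup.inclusion hle z ∈ D.cover.π.ker := hz
    have h1 := D.eight_inverts hzk
    have h2 : D.eight * Subgroup.inclusion hle z * D.eight⁻¹ = Subgroup.inclusion hle z := by
      refine mul_inv_eq_iff_eq_mul.2 (Subtype.ext ?_)
      exact (Subgroup.mem_centralizer_singleton_iff.1 z.2).symm
    rw [h2] at h1
    have h3 := D.cover.eq_one_of_sq hzk (eq_inv_iff_mul_eq_one.1 h1)
    exact Subgroup.mem_bot.2 (Subgroup.inclusion_injective hle (h3.trans (map_one _).symm))
  have hrange : φ.range ≤ Subgroup.centralizer ({el (repI 6)} : Set GLTwoThree.M) := by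
    rintro _ ⟨z, rfl⟩
    rw [Subgroup.mem_centralizer_singleton_iff, ← D.π_eight]
    show D.cover.π _ * D.cover.π D.eight = D.cover.π D.eight * D.cover.π _
    rw [← map_mul, ← map_mul]
    exact congrArg _ (Subtype.ext (Subgroup.mem_centralizer_singleton_iff.1 z.2))
  have h8 : Nat.card (Subgroup.centralizer ({el (repI 6)} : Set GLTwoThree.M)) = 8 := by
    refine Eq.trans ?_ card_commute_eight
    rw [← card_filter fun j => mulI j (repI 6) = mulI (repI 6) j]
    refine Nat.card_congr (Equiv.subtypeEquivRight fun x => ?_)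
    rw [Subgroup.mem_centralizer_singleton_iff, eq_iff, idx_mul, idx_mul, idx_el]
  rw [Nat.card_congr (MonoidHom.ofInjective hinj).toEquiv, ← h8]
  exact Subgroup.card_dvd_of_le hrange

end FourData

end CfsgLib.SubdegreeThree
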