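/-
The exceptional characters of a simple group with a covered involution centralizer: their values,
their membership of the principal block and the resulting equation for the degrees.
-/
import Cfsg.Agent.Lib.SubdegreeThree.Exceptional
import Cfsg.Agent.Lib.SubdegreeThree.Signs
import Cfsg.Agent.Lib.Involutions.SectionAverage
import Cfsg.Agent.Lib.Involutions.GLTwoThree.Order
import Cfsg.Agent.Lib.BrauerCharacters.ClassMul
import Cfsg.Agent.Lib.SmallGroups.BrauerReynoldsBasic

set_option autoImplicit false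
set_option linter.unusedSectionVars false

open Cfsg
open CfsgLib.CharTheory CfsgLib.Involutions CfsgLib.Involutions.GLTwoThree
open scoped ComplexConjugate

namespace CfsgLib.SubdegreeThree

universe u

variable {G : Type u} [Group G] [Fintype G] {t : G}

namespace FourData

variable (D : FourData t)

theorem sum_coset_eight [Fintype D.cover.π.ker] {φ : G → ℂ} (hφ : IsClassFunction G φ) :
    ∑ o : D.cover.π.ker, φ ((o : Subgroup.centralizer ({t} : Set G)) * D.eight) =
      (Nat.card D.cover.π.ker : ℂ) * φ D.eight := by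
  rw [Finset.sum_congr rfl (g := fun _ => φ D.eight) fun o _ => ?_, Finset.sum_const,
    Finset.card_univ, nsmul_eq_mul, Nat.card_eq_fintype_card]
  obtain ⟨c, hc⟩ := isConj_iff.1 (D.eight_coset o.2)
  rw [Subgroup.coe_mul] at hc
  rw [← hc]
  exact hφ _ _

theorem eight_pow_two : ∃ k : ℕ, orderOf (D.eight : G) = 2 ^ k := by
  have h : orderOf (D.eight : G) ∣ 2 ^ 3 :=
    (Subgroup.orderOf_dvd_natCard _ (Subgroup.mem_centralizer_singleton_iff.2 rfl)).trans
      D.card_centralizer_eight
  obtain ⟨k, -, hk⟩ := (Nat.dvd_prime_pow Nat.prime_two).1 h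
  exact ⟨k, hk⟩

theorem mem_principal {M : Ideal AlgInt} [M.IsPrime] [Fact (2 : ℕ).Prime] (hM : IsPModular 2 M)
    {χ : IrrCharacter G} (h : (χ : G → ℂ) D.eight ≠ 0) : χ ∈ principalBlock M G := by
  classical
  by_contra hχ
  haveI := Fintype.ofFinite (centralizerPPrimeCore 2 (D.eight : G))
  obtain ⟨j, -, hj⟩ := (Nat.dvd_prime_pow Nat.prime_two).1
    (show Nat.card (Subgroup.centralizer ({(D.eight : G)} : Set G)) ∣ 2 ^ 3 from
      D.card_centralizer_eight)
  have hP : IsPGroup 2 (Subgroup.centralizer ({(D.eight : G)} : Set G)) := IsPGroup.of_card hj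
  haveI := hP.isNilpotent
  haveI : Group.IsSolvable (Subgroup.centralizer ({(D.eight : G)} : Set G)) := inferInstance
  have hbot : centralizerPPrimeCore 2 (D.eight : G) = ⊥ := by
    have h1 := CfsgLib.Balance.not_dvd_card_centralizerPPrimeCore (p := 2) (D.eight : G)
    have h2 := (Subgroup.card_dvd_of_le
      (CfsgLib.Balance.centralizerPPrimeCore_le_centralizer 2 (D.eight : G))).trans
      D.card_centralizer_eight
    refine Subgroup.card_eq_one.1 (Nat.eq_one_of_dvd_coprimes ?_ dvd_rfl h2)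
    exact (Nat.Coprime.pow_left 3 ((Nat.Prime.coprime_iff_not_dvd Nat.prime_two).2 h1)).symm
  have h0 := sum_coset_section_eq_zero hM hχ D.eight_pow_two (y := (1 : G)) (one_mem _)
    (by rw [orderOf_one]; decide)
  rw [Finset.sum_eq_single (1 : centralizerPPrimeCore 2 (D.eight : G))] at h0
  · exact h (by simpa using h0)
  · intro b _ hb
    exact absurd (Subtype.ext (Subgroup.mem_bot.1 (hbot ▸ b.2))) hb
  · intro hb
    exact absurd (Finset.mem_univ _) hb

theorem apply_coset {M : Ideal AlgInt} [M.IsPrime] [Fact (2 : ℕ).Prime] (hM : IsPModular 2 M)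
    {χ : IrrCharacter G} (hχ : χ ∈ principalBlock M G) {z o : Subgroup.centralizer ({t} : Set G)}
    {k : ℕ} (hz : orderOf (z : G) = 2 ^ k) (hz1 : (z : G) ≠ 1)
    (hs : (z : G) ∈ special t) (hzc : ∀ n ∈ D.cover.π.ker, z * n * z⁻¹ = n)
    (ho : o ∈ D.cover.π.ker) : (χ : G → ℂ) ((z : G) * o) = (χ : G → ℂ) z := by
  refine CfsgLib.Involutions.apply_mul_eq_apply hM hχ hz hz1
    (D.cover.π.ker.map (Subgroup.centralizer ({t} : Set G)).subtype) ?_ ?_ ?_
    ⟨o, ho, rfl⟩
  · rintro _ ⟨n, hn, rfl⟩
    rw [Subgroup.mem_centralizer_singleton_iff]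
    exact (congrArg Subtype.val (mul_inv_eq_iff_eq_mul.1 (hzc n hn))).symm
  · rintro c hc _ ⟨n, hn, rfl⟩
    have hct : c ∈ Subgroup.centralizer ({t} : Set G) := by
      obtain ⟨i, hi⟩ := Subgroup.mem_zpowers_iff.1 hs
      rw [Subgroup.mem_centralizer_singleton_iff] at hc ⊢
      rw [← hi]
      exact (Commute.zpow_right hc i).eq
    exact ⟨⟨c, hct⟩ * n * (⟨c, hct⟩)⁻¹, (MonoidHom.normal_ker _).conj_mem _ hn _, rfl⟩
  · rw [Subgroup.card_map_of_injective (Subgroup.subtype_injective _)]
    exact fun h => Nat.not_even_iff_odd.2 D.cover.odd (even_iff_two_dvd.2 h)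

/-- The element `t` in its centralizer. -/
def tC : Subgroup.centralizer ({t} : Set G) :=
  ⟨t, Subgroup.mem_centralizer_singleton_iff.2 rfl⟩

theorem apply_t {M : Ideal AlgInt} [M.IsPrime] [Fact (2 : ℕ).Prime] (hM : IsPModular 2 M)
    {χ : IrrCharacter G} (hχ : χ ∈ principalBlock M G) {o : Subgroup.centralizer ({t} : Set G)}
    (ho : o ∈ D.cover.π.ker) : (χ : G → ℂ) (t * (o : G)) = (χ : G → ℂ) t :=
  D.apply_coset hM hχ (z := tC) (k := 1) (by show orderOf t = 2 ^ 1; rw [D.ht]; rfl)
    (ne_one D.ht) (Subgroup.mem_zpowers t)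
    (fun n _ => mul_inv_eq_iff_eq_mul.2
      (Subtype.ext (Subgroup.mem_centralizer_singleton_iff.1 n.2).symm)) ho

theorem no_pairs (hone : ∀ x : G, orderOf x = 2 → IsConj t x) (x : G) (h1 : IsConj t x)
    (h2 : IsConj t (x * D.eight)) : False := by
  have ho : ∀ {y : G}, IsConj t y → orderOf y = 2 := fun {y} hy => by
    obtain ⟨g, rfl⟩ := isConj_iff.1 hy
    rw [orderOf_conj, D.ht]
  have hi := mul_self_eq_one (ho h1)
  have hih := mul_self_eq_one (ho h2)
  have hinv : x * D.eight * x⁻¹ = (D.eight : G)⁻¹ := by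
    rw [inv_eq_self (ho h1)]
    exact (inv_eq_of_mul_eq_one_left (by simpa [mul_assoc] using hih)).symm
  obtain ⟨k, hk⟩ := Subgroup.mem_zpowers_iff.1 D.eight_special
  have hxC : x ∈ Subgroup.centralizer ({t} : Set G) := by
    rw [Subgroup.mem_centralizer_singleton_iff]
    refine mul_inv_eq_iff_eq_mul.1 ?_
    rw [← hk, ← conj_zpow, hinv, inv_zpow, hk, inv_eq_self D.ht]
  set xc : Subgroup.centralizer ({t} : Set G) := ⟨x, hxC⟩ with hxc
  have key := card_inverting (x := D.cover.π D.eight) ((D.cover.mem_special_iff D.ht _).1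
    D.eight_special)
  rw [D.cls_eight] at key
  have hne : ∀ z : Subgroup.centralizer ({t} : Set G), orderOf (z : G) = 2 →
      D.cover.π z ≠ 1 := fun z hz h => ne_one hz (congrArg Subtype.val
        (D.cover.eq_one_of_sq (MonoidHom.mem_ker.2 h) (Subtype.ext (mul_self_eq_one hz))))
  have hmem : Nonempty {i : GLTwoThree.M // i ≠ 1 ∧ i * i = 1 ∧ i * D.cover.π D.eight ≠ 1 ∧
      i * D.cover.π D.eight * (i * D.cover.π D.eight) = 1} := by
    refine ⟨⟨D.cover.π xc, hne xc (ho h1), ?_, ?_, ?_⟩⟩
    · rw [← map_mul, show xc * xc = 1 from Subtype.ext hi, map_one]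
    · rw [← map_mul]
      exact hne (xc * D.eight) (ho h2)
    · rw [← map_mul, ← map_mul, show xc * D.eight * (xc * D.eight) = 1 from Subtype.ext hih,
        map_one]
  have : 0 < Nat.card {i : GLTwoThree.M // i ≠ 1 ∧ i * i = 1 ∧ i * D.cover.π D.eight ≠ 1 ∧
      i * D.cover.π D.eight * (i * D.cover.π D.eight) = 1} := Nat.card_pos
  rw [key] at this
  exact absurd this (by decide)

/-- What is known of the exceptional characters. -/
theorem exists_values [IsSimpleGroup G] {M : Ideal AlgInt} [M.IsPrime] [Fact (2 : ℕ).Prime]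
    (hM : IsPModular 2 M) (hone : ∀ x : G, orderOf x = 2 → IsConj t x) :
    ∃ f : Fin 8 → G → ℂ, ∃ a y : ℤ, Signed f ∧ (∀ j, f j 1 = (degTab a y j : ℂ)) ∧
      (∀ j, f j D.eight = toC (valTab j 6)) ∧
      (∀ j, toC (valTab j 6) ≠ 0 → f j t = toC (valTab j 1)) ∧
      ∑ j, toC (valTab j 1) ^ 2 * toC (valTab j 6) / (degTab a y j : ℂ) = 0 := by
  classical
  haveI := Fintype.ofFinite (IrrCharacter G)
  haveI := Fintype.ofFinite D.cover.π.ker
  obtain ⟨f, a, y, hs, hd, hv, ho⟩ := exists_exceptional D.cover D.ht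
  have hN : (Nat.card D.cover.π.ker : ℂ) ≠ 0 := Nat.cast_ne_zero.2 Nat.card_pos.ne'
  have h8 : ∀ j, f j D.eight = toC (valTab j 6) := fun j => by
    have := hv j D.eight D.eight_special
    rw [D.sum_coset_eight (CfsgLib.Coherence.signed_isClassFunction (hs.irr j)), D.cls_eight]
      at this
    exact mul_left_cancel₀ hN this
  have hrep : ∀ j, ∃ φ : IrrCharacter G, f j = (φ : G → ℂ) ∨ f j = -(φ : G → ℂ) := fun j => by
    rcases hs.irr j with h1 | h1
    · exact ⟨⟨_, h1⟩, Or.inl rfl⟩
    · exact ⟨⟨_, h1⟩, Or.inr (neg_neg _).symm⟩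
  choose φ hφ using hrep
  have hblock : ∀ j, toC (valTab j 6) ≠ 0 → φ j ∈ principalBlock M G := fun j hj => by
    refine D.mem_principal hM fun h0 => hj ?_
    rw [← h8 j]
    rcases hφ j with e1 | e1 <;> rw [e1] <;> simp [h0]
  have ht1 : ∀ j, toC (valTab j 6) ≠ 0 → f j t = toC (valTab j 1) := fun j hj => by
    have h := hv j tC (Subgroup.mem_zpowers t)
    rw [show cls (D.cover.π tC) = 1 by
      rw [tC, D.cover.t_image D.ht, cls, idx_negI, clsI_zero.2]] at h
    have hc : ∀ o : D.cover.π.ker,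
        f j ((o : Subgroup.centralizer ({t} : Set G)) * (tC : Subgroup.centralizer ({t} : Set G)))
          = f j t := fun o => by
      have h1 := D.apply_t hM (hblock j hj) o.2
      show f j (((o : Subgroup.centralizer ({t} : Set G)) : G) * t) = _
      rw [Subgroup.mem_centralizer_singleton_iff.1 (o : Subgroup.centralizer ({t} : Set G)).2]
      rcases hφ j with e1 | e1 <;> rw [e1] <;> simp [h1]
    rw [Finset.sum_congr rfl fun o _ => hc o, Finset.sum_const, Finset.card_univ, nsmul_eq_mul,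
      ← Nat.card_eq_fintype_card] at h
    exact mul_left_cancel₀ hN h
  refine ⟨f, a, y, hs, hd, h8, ht1, ?_⟩
  have hinj : Function.Injective φ := by
    intro i j hij
    by_contra hne
    have h0 := hs.orth i j
    rw [if_neg hne] at h0
    have h1 : classInner (φ i : G → ℂ) (φ i : G → ℂ) = 1 := classInner_self_of_isIrr (φ i).2
    rcases hφ i with e1 | e1 <;> rcases hφ j with e2 | e2 <;> rw [e1, e2, ← hij] at h0 <;>
      simp [CfsgLib.Coherence.inner_neg_left, CfsgLib.Coherence.inner_neg_right, h1] at h0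
  have hzero : ∀ χ : IrrCharacter G, χ ∉ Finset.univ.image φ → (χ : G → ℂ) D.eight = 0 := by
    intro χ hχ
    have := ho _ χ.2 (fun j => by
      have h0 := classInner_eq_zero_of_ne (φ j).2 χ.2 fun e1 => hχ (Finset.mem_image.2
        ⟨j, Finset.mem_univ j, Subtype.ext e1⟩)
      rcases hφ j with e1 | e1 <;> rw [e1]
      · exact h0
      · rw [CfsgLib.Coherence.inner_neg_left, h0, neg_zero]) D.eight D.eight_special
    rw [D.sum_coset_eight (IsIrrCharacter.isClassFunction χ.2)] at this
    exact (mul_eq_zero.1 this).resolve_left hN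
  have h := BrauerCharacters.sum_weight_pairs t t (fun v => if v = (D.eight : G) then 1 else 0)
  simp only [ite_mul, one_mul, zero_mul, Finset.sum_ite_eq', Finset.mem_univ, if_true] at h
  have hcount : ∀ i : DecidablePred fun x => IsConj t x ∧ IsConj t (x * (D.eight : G)),
      (@Finset.filter G _ i Finset.univ).card = 0 := fun i =>
    Finset.card_eq_zero.2 (Finset.filter_eq_empty_iff.2 fun {x} _ hx =>
      D.no_pairs hone x hx.1 hx.2)
  rw [hcount, Nat.cast_zero,
    ← Finset.sum_subset (Finset.subset_univ (Finset.univ.image φ)) (fun χ _ hχ => by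
      rw [hzero χ hχ, mul_zero]), Finset.sum_image hinj.injOn] at h
  have hidx : ((Subgroup.centralizer ({t} : Set G)).index : ℂ) ≠ 0 :=
    Nat.cast_ne_zero.2 Subgroup.index_ne_zero_of_finite
  have hG : (Nat.card G : ℂ) ≠ 0 := Nat.cast_ne_zero.2 Nat.card_pos.ne'
  have h2 := (mul_eq_zero.1 h.symm).resolve_left (div_ne_zero hidx hG)
  have hterm : ∀ j, centralChar (φ j : G → ℂ) t * conj ((φ j : G → ℂ) t) * (φ j : G → ℂ) D.eight =
      ((Subgroup.centralizer ({t} : Set G)).index : ℂ) *
        (toC (valTab j 1) ^ 2 * toC (valTab j 6) / (degTab a y j : ℂ)) := by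
    intro j
    by_cases hj : toC (valTab j 6) = 0
    · have : (φ j : G → ℂ) D.eight = 0 := by
        have e := h8 j
        rw [hj] at e
        rcases hφ j with e1 | e1 <;> rw [e1] at e <;> simpa using e
      rw [this, hj, mul_zero, mul_zero, zero_div, mul_zero]
    · have hreal : conj (f j t) = f j t := by
        rw [ht1 j hj, conj_toC]
        have : ∀ k : Fin 8, star (valTab k 1) = valTab k 1 := by decide +kernel
        rw [this]
      rw [← ht1 j hj, ← h8 j, ← hd j, centralChar]
      rcases hφ j with e1 | e1 <;> rw [e1] at hreal ⊢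
      · rw [hreal, sq]; ring
      · simp only [Pi.neg_apply, map_neg, neg_inj] at hreal ⊢
        rw [hreal, div_neg]
        ring
  rw [Finset.sum_congr rfl fun j _ => hterm j, ← Finset.mul_sum] at h2
  exact (mul_eq_zero.1 h2).resolve_left hidx

end FourData

end CfsgLib.SubdegreeThree
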