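/-
A simple group with an involution centralizer covering GL(2,3) by a kernel of odd order, in which a
four-group is self-centralizing, has the centralizer isomorphic to GL(2,3).
-/
import Cfsg.Agent.Lib.SubdegreeThree.Values
import Cfsg.Agent.Lib.CharTheory.Ito
import Cfsg.Agent.Lib.Frobenius.BrauerPerm

set_option autoImplicit false
set_option linter.unusedSectionVars false

open Cfsg
open CfsgLib.CharTheory CfsgLib.Involutions CfsgLib.Involutions.GLTwoThree
open scoped ComplexConjugate

namespace CfsgLib.SubdegreeThree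

universe u

/-- The multiplicity of an irreducible character in a pulled back character is a natural number. -/
theorem exists_nat_inner {G T : Type*} [Group G] [Fintype G] [Group T] [Fintype T] (φ : T →* G)
    (χ : IrrCharacter G) (ξ : IrrCharacter T) :
    ∃ m : ℕ, classInner (fun x => (χ : G → ℂ) (φ x)) (ξ : T → ℂ) = m := by
  classical
  haveI := Fintype.ofFinite (IrrCharacter T)
  obtain ⟨m, hm⟩ := IsCharacter.exists_sum
    (CfsgLib.Coherence.isCharacter_comp (IsIrrCharacter.isCharacter χ.2) φ)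
  refine ⟨m ξ, ?_⟩
  rw [show (fun x : T => (χ : G → ℂ) (φ x)) = ∑ ψ : IrrCharacter T, (m ψ : ℂ) • (ψ : T → ℂ) from hm,
    classInner_sum_irr]

variable {G : Type u} [Group G] [Fintype G] {t : G}

namespace FourData

variable (D : FourData t)

theorem exists_quat :
    ∃ S : Subgroup (Subgroup.centralizer ({t} : Set G)), Nat.card S = 8 ∧
      ∀ s ∈ S, D.cover.π s ∈ quatQ ∧ ((s : G) = 1 ∨ ((s : G) ∈ special t ∧
        ∃ k : ℕ, orderOf (s : G) = 2 ^ k)) := by
  classical
  haveI : Fact (Nat.Prime 2) := ⟨Nat.prime_two⟩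
  set U := quatQ.comap D.cover.π with hU
  have hcard : Nat.card U = 8 * Nat.card D.cover.π.ker := by
    have h1 := U.index_mul_card
    rw [hU, Subgroup.index_comap_of_surjective _ D.cover.surj, D.cover.card_eq] at h1
    have h2 := quatQ.index_mul_card
    rw [card_quatQ, card_M] at h2
    have h6 : quatQ.index = 6 := by omega
    rw [h6] at h1
    rw [hU]
    omega
  obtain ⟨S⟩ : Nonempty (Sylow 2 U) := inferInstance
  have h8 : Nat.card (S : Subgroup U) = 8 := by
    rw [Sylow.card_eq_multiplicity, hcard]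
    have hodd := D.cover.odd
    rw [Nat.factorization_mul (by norm_num) Nat.card_pos.ne', Finsupp.add_apply,
      show (8 : ℕ) = 2 ^ 3 from rfl, Nat.prime_two.factorization_pow, Finsupp.single_eq_same,
      Nat.factorization_eq_zero_of_not_dvd (fun h => Nat.not_even_iff_odd.2 hodd
        (even_iff_two_dvd.2 h))]
  refine ⟨(S : Subgroup U).map U.subtype, ?_, ?_⟩
  · rw [Subgroup.card_map_of_injective U.subtype_injective, h8]
  rintro _ ⟨s, hs, rfl⟩
  have hq : D.cover.π (U.subtype s) ∈ quatQ := s.2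
  obtain ⟨k, hk⟩ := IsPGroup.iff_orderOf.1 S.isPGroup' ⟨s, hs⟩
  have hk' : orderOf ((U.subtype s : Subgroup.centralizer ({t} : Set G)) : G) = 2 ^ k := by
    rw [Subgroup.orderOf_coe, Subgroup.coe_subtype, Subgroup.orderOf_coe, ← hk]
    exact (Subgroup.orderOf_mk s hs).symm
  refine ⟨hq, ?_⟩
  by_cases h0 : idx (D.cover.π (U.subtype s)) = 0
  · left
    have hker : U.subtype s ∈ D.cover.π.ker := by rw [MonoidHom.mem_ker, eq_iff, idx_one, h0]
    have h2 : orderOf (U.subtype s) ∣ Nat.card D.cover.π.ker :=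
      Subgroup.orderOf_dvd_natCard _ hker
    rw [← Subgroup.orderOf_coe, hk'] at h2
    have h1 : 2 ^ k = 1 :=
      Nat.eq_one_of_dvd_coprimes (Nat.Coprime.pow_left k (Nat.coprime_two_left.2 D.cover.odd))
        dvd_rfl h2
    rw [← orderOf_eq_one_iff, hk', h1]
  · exact Or.inr ⟨(D.cover.mem_special_iff D.ht _).2 (quat_special _ hq h0), k, hk'⟩

/-- A character of the principal block negative enough at `t` has degree at least sixteen more. -/
theorem degree_bound [IsSimpleGroup G] {M : Ideal AlgInt} [M.IsPrime] [Fact (2 : ℕ).Prime]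
    (hM : IsPModular 2 M) {χ : IrrCharacter G} (hχ : χ ∈ principalBlock M G)
    (hne : χ ≠ trivIrr G) {d k : ℕ} (hd : (χ : G → ℂ) 1 = d) (hk : (χ : G → ℂ) t = -(k : ℂ))
    (hN : D.cover.π.ker ≠ ⊥) : k + 16 ≤ d := by
  classical
  haveI : Nontrivial D.cover.π.ker := (Subgroup.nontrivial_iff_ne_bot _).2 hN
  obtain ⟨⟨w, hw⟩, hw1⟩ := exists_ne (1 : D.cover.π.ker)
  have hw1' : w ≠ 1 := fun h => hw1 (Subtype.ext h)
  set A := Subgroup.zpowers w with hA
  have hAN : A ≤ D.cover.π.ker := Subgroup.zpowers_le.2 hw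
  obtain ⟨S, hS8, hS⟩ := D.exists_quat
  haveI := Fintype.ofFinite A
  haveI := Fintype.ofFinite S
  haveI := Fintype.ofFinite (IrrCharacter A)
  have hcomm : ∀ (a : A) (s : S), Commute (a : Subgroup.centralizer ({t} : Set G)) s := fun a s =>
    (mul_inv_eq_iff_eq_mul.1 (D.quat_centralizes (hS s s.2).1 (hAN a.2))).symm
  -- values on the products
  have hval : ∀ (a : A) (s : S), s ≠ 1 → (χ : G → ℂ)
      (((a : Subgroup.centralizer ({t} : Set G)) * s : Subgroup.centralizer ({t} : Set G)) : G) =
      (χ : G → ℂ) ((s : Subgroup.centralizer ({t} : Set G)) : G) := by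
    intro a s hs1
    obtain ⟨hq, h | ⟨hsp, j, hj⟩⟩ := hS s s.2
    · exact absurd (Subtype.ext (Subtype.ext h)) hs1
    rw [(hcomm a s).eq, Subgroup.coe_mul]
    refine D.apply_coset hM hχ hj ?_ hsp (fun n hn => D.quat_centralizes hq hn) (hAN a.2)
    exact fun h => hs1 (Subtype.ext (Subtype.ext h))
  let φA : A →* G := (Subgroup.centralizer ({t} : Set G)).subtype.comp A.subtype
  choose m hm using exists_nat_inner φA χ
  -- the trivial multiplicity is at least `k`
  have htriv : k ≤ m (trivIrr A) := by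
    let T2 := Subgroup.zpowers (tC (t := t))
    haveI := Fintype.ofFinite T2
    let ψ : A × T2 →* G := (Subgroup.centralizer ({t} : Set G)).subtype.comp
      (MonoidHom.noncommCoprod A.subtype T2.subtype fun a b => by
        obtain ⟨i, hi⟩ := Subgroup.mem_zpowers_iff.1 b.2
        show Commute (a : Subgroup.centralizer ({t} : Set G)) (b : Subgroup.centralizer _)
        rw [← hi]
        refine Commute.zpow_right ?_ i
        exact Subtype.ext (Subgroup.mem_centralizer_singleton_iff.1
          (a : Subgroup.centralizer ({t} : Set G)).2))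
    obtain ⟨n, hn⟩ := exists_nat_inner ψ χ (trivIrr (A × T2))
    have hT2 : Nat.card T2 = 2 := by
      rw [Nat.card_zpowers, ← Subgroup.orderOf_coe]
      exact D.ht
    have h1t : (1 : T2) ≠ ⟨tC, Subgroup.mem_zpowers _⟩ := fun h =>
      ne_one D.ht (congrArg (fun x : T2 => ((x : Subgroup.centralizer ({t} : Set G)) : G)) h).symm
    have huniv : (Finset.univ : Finset T2) = {1, ⟨tC, Subgroup.mem_zpowers _⟩} := by
      symm
      refine Finset.eq_univ_of_card _ ?_
      rw [Finset.card_pair h1t, ← Nat.card_eq_fintype_card, hT2]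
    have hsum : ∑ p : A × T2, (χ : G → ℂ) (ψ p) =
        ∑ a : A, (χ : G → ℂ) (φA a) + (Nat.card A : ℂ) * (χ : G → ℂ) t := by
      rw [Fintype.sum_prod_type]
      simp only [huniv, Finset.sum_pair h1t, Finset.sum_add_distrib]
      congr 1
      · exact Finset.sum_congr rfl fun a _ => by simp [ψ, φA]
      · rw [Finset.sum_congr rfl (g := fun _ => (χ : G → ℂ) t) fun a _ => ?_, Finset.sum_const,
          Finset.card_univ, nsmul_eq_mul, Nat.card_eq_fintype_card]
        show (χ : G → ℂ) ((((a : Subgroup.centralizer ({t} : Set G)) *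
          tC : Subgroup.centralizer ({t} : Set G))) : G) = _
        rw [Subgroup.coe_mul]
        show (χ : G → ℂ) (((a : Subgroup.centralizer ({t} : Set G)) : G) * t) = _
        rw [Subgroup.mem_centralizer_singleton_iff.1 (a : Subgroup.centralizer ({t} : Set G)).2]
        exact D.apply_t hM hχ (hAN a.2)
    have hm0 := hm (trivIrr A)
    have hA0 : (Nat.card A : ℂ) ≠ 0 := Nat.cast_ne_zero.2 Nat.card_pos.ne'
    simp only [classInner, trivIrr_apply, map_one, mul_one] at hm0 hn
    rw [hsum, Nat.card_prod, hT2, hk] at hn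
    rw [inv_mul_eq_iff_eq_mul₀ hA0] at hm0
    rw [hm0, inv_mul_eq_iff_eq_mul₀ (by exact_mod_cast (mul_ne_zero Nat.card_pos.ne' two_ne_zero :
      Nat.card A * 2 ≠ 0))] at hn
    have h3 : ((m (trivIrr A) : ℕ) : ℂ) = ((k + 2 * n : ℕ) : ℂ) := by
      refine mul_left_cancel₀ hA0 ?_
      push_cast at hn ⊢
      linear_combination hn
    have := Nat.cast_injective h3
    omega
  -- nontrivial multiplicities are multiples of eight
  have hdiv : ∀ ξ : IrrCharacter A, ξ ≠ trivIrr A → 8 ∣ m ξ := by
    intro ξ hξ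
    let ψ : A × S →* G := (Subgroup.centralizer ({t} : Set G)).subtype.comp
      (MonoidHom.noncommCoprod A.subtype S.subtype hcomm)
    let ζ : IrrCharacter (A × S) := ⟨fun p => (ξ : A → ℂ) (MonoidHom.fst A S p),
      isIrrCharacter_comp ξ.2 (fun a => ⟨(a, 1), rfl⟩)⟩
    obtain ⟨n, hn⟩ := exists_nat_inner ψ χ ζ
    refine ⟨n, ?_⟩
    have horth : ∑ a : A, conj ((ξ : A → ℂ) a) = 0 := by
      have h0 := classInner_eq_zero_of_ne (trivIrr A).2 ξ.2 fun h => hξ (Subtype.ext h).symm
      simp only [classInner, trivIrr_apply, one_mul] at h0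
      exact (mul_eq_zero.1 h0).resolve_left (inv_ne_zero (Nat.cast_ne_zero.2 Nat.card_pos.ne'))
    have hsum : ∑ p : A × S, (χ : G → ℂ) (ψ p) * conj ((ζ : A × S → ℂ) p) =
        ∑ a : A, (χ : G → ℂ) (φA a) * conj ((ξ : A → ℂ) a) := by
      rw [Fintype.sum_prod_type, Finset.sum_comm,
        Finset.sum_eq_single (1 : S)]
      · refine Finset.sum_congr rfl fun a _ => ?_
        have e1 : ψ (a, 1) = φA a := by
          show (((MonoidHom.noncommCoprod A.subtype S.subtype hcomm) (a, 1) :
            Subgroup.centralizer ({t} : Set G)) : G) = _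
          show (((a : Subgroup.centralizer ({t} : Set G)) * ((1 : S) :
            Subgroup.centralizer ({t} : Set G)) : Subgroup.centralizer ({t} : Set G)) : G) = _
          rw [OneMemClass.coe_one, mul_one]
          rfl
        rw [e1]
        rfl
      · intro s _ hs1
        rw [Finset.sum_congr rfl (g := fun a =>
          (χ : G → ℂ) ((s : Subgroup.centralizer ({t} : Set G)) : G) * conj ((ξ : A → ℂ) a))
          fun a _ => ?_, ← Finset.mul_sum, horth, mul_zero]
        rw [← hval a s hs1]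
        rfl
      · exact fun h => absurd (Finset.mem_univ _) h
    have hm0 := hm ξ
    have hA0 : (Nat.card A : ℂ) ≠ 0 := Nat.cast_ne_zero.2 Nat.card_pos.ne'
    simp only [classInner] at hm0 hn
    rw [hsum, Nat.card_prod, hS8] at hn
    rw [inv_mul_eq_iff_eq_mul₀ hA0] at hm0
    rw [hm0, inv_mul_eq_iff_eq_mul₀ (by exact_mod_cast (mul_ne_zero Nat.card_pos.ne'
      (by norm_num) : Nat.card A * 8 ≠ 0))] at hn
    refine Nat.cast_injective (R := ℂ) ?_
    refine mul_left_cancel₀ hA0 ?_
    push_cast at hn ⊢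
    linear_combination hn
  -- the decomposition
  have hAab : ∀ a b : A, a * b = b * a := fun a b =>
    Subtype.ext (D.ker_comm (hAN a.2) (hAN b.2))
  have hcl : IsClassFunction A fun a => (χ : G → ℂ) (φA a) := fun g c => by
    show (χ : G → ℂ) (φA (c * g * c⁻¹)) = _
    rw [hAab c g, mul_inv_cancel_right]
  have hexp : ∀ a : A, (χ : G → ℂ) (φA a) = ∑ ξ : IrrCharacter A, (m ξ : ℂ) * (ξ : A → ℂ) a := by
    intro a
    have h := congrFun (eq_sum_classInner hcl) a
    simp only [Finset.sum_apply, Pi.smul_apply, smul_eq_mul, hm] at h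
    exact h
  have hone : ∀ ξ : IrrCharacter A, (ξ : A → ℂ) 1 = 1 := fun ξ =>
    apply_one_eq_one_of_comm hAab ξ.2
  have hdsum : d = ∑ ξ : IrrCharacter A, m ξ := by
    refine Nat.cast_injective (R := ℂ) ?_
    rw [← hd, Nat.cast_sum]
    have := hexp 1
    rw [map_one] at this
    rw [this]
    exact Finset.sum_congr rfl fun ξ _ => by rw [hone, mul_one]
  obtain ⟨ξ, hξ, hmξ⟩ : ∃ ξ : IrrCharacter A, ξ ≠ trivIrr A ∧ m ξ ≠ 0 := by
    by_contra hcon
    push Not at hcon
    refine hw1' (Subtype.ext (SmallGroups.BrauerReynolds.eq_one_of_apply_eq hne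
      (g := (w : G)) ?_))
    have hw' := hexp ⟨w, Subgroup.mem_zpowers w⟩
    have h1 := hexp 1
    rw [Finset.sum_eq_single (trivIrr A) (fun ξ _ hξ => by rw [hcon ξ hξ, Nat.cast_zero, zero_mul])
      (fun h => absurd (Finset.mem_univ _) h), trivIrr_apply] at hw' h1
    rw [map_one] at h1
    rw [h1]
    exact hw'
  let ξ' : IrrCharacter A := ⟨fun a => (ξ : A → ℂ) a⁻¹,
    CfsgLib.Frobenius.isIrrCharacter_comp_inv ξ.2⟩
  have hm' : m ξ' = m ξ := by
    refine Nat.cast_injective (R := ℂ) ?_
    rw [← hm, ← hm, classInner, classInner]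
    congr 1
    refine Fintype.sum_equiv (Equiv.inv A) _ _ fun a => ?_
    have h := D.r_inverts (hAN a.2)
    have hc : (χ : G → ℂ) (φA a) = (χ : G → ℂ) (φA a⁻¹) := by
      have h2 := congrArg Subtype.val h
      simp only [Subgroup.coe_mul, Subgroup.coe_inv] at h2
      show _ = (χ : G → ℂ) (((a : Subgroup.centralizer ({t} : Set G)) : G)⁻¹)
      rw [← h2, IsIrrCharacter.isClassFunction χ.2]
      rfl
    rw [hc]
    rfl
  have hne' : ξ' ≠ ξ := by
    intro h
    have hodd : Odd (Nat.card A) := D.cover.odd.of_dvd_nat (Subgroup.card_dvd_of_le hAN)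
    refine hξ (Subtype.ext (CfsgLib.Frobenius.eq_one_of_real_of_odd hodd ξ.2 fun a => ?_))
    rw [← IsIrrCharacter.inv ξ.2 a]
    exact congrFun (congrArg Subtype.val h) a
  have hξ' : ξ' ≠ trivIrr A := by
    intro h
    refine hξ (Subtype.ext (funext fun a => ?_))
    have := congrFun (congrArg Subtype.val h) a⁻¹
    simpa [ξ', trivIrr_apply] using this
  have h8 := Nat.le_of_dvd (Nat.pos_of_ne_zero hmξ) (hdiv ξ hξ)
  have h3 : ∑ η ∈ ({trivIrr A, ξ, ξ'} : Finset (IrrCharacter A)), m η ≤ d := by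
    rw [hdsum]
    exact Finset.sum_le_sum_of_subset (Finset.subset_univ _)
  rw [Finset.sum_insert (by simp [hξ.symm, hξ'.symm]), Finset.sum_pair hne'.symm, hm'] at h3
  omega

theorem ker_eq_bot [IsSimpleGroup G] (hone : ∀ x : G, orderOf x = 2 → IsConj t x) :
    D.cover.π.ker = ⊥ := by
  classical
  haveI : Fact (2 : ℕ).Prime := ⟨Nat.prime_two⟩
  obtain ⟨M, hM⟩ := CfsgLib.Involutions.exists_isPModular Nat.prime_two
  haveI := Blocks.isPrime_of_isPModular hM
  obtain ⟨f, a, y, hs, hd, h8, ht1, E⟩ := D.exists_values hM hone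
  by_contra hN
  have hne : ∀ j, degTab a y j ≠ 0 := fun j h0 =>
    CfsgLib.Coherence.signed_apply_one_ne_zero (hs.irr j) (by rw [hd, h0, Int.cast_zero])
  have a0 : (a : ℂ) ≠ 0 := Int.cast_ne_zero.2 (hne 1)
  have x0 : (-1 - a : ℂ) ≠ 0 := by exact_mod_cast hne 4
  have y0 : (y : ℂ) ≠ 0 := Int.cast_ne_zero.2 (hne 5)
  have z0 : (-a - y : ℂ) ≠ 0 := by exact_mod_cast hne 6
  simp [Fin.sum_univ_eight, valTab, irrTab, v2, v4, degTab, toC_mk, map_ofNat] at E
  have hsum : a + y ≠ -1 := by
    intro hsum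
    have hz : f 6 1 = 1 := by
      rw [hd]
      simp [degTab]
      exact_mod_cast (show (-a - y : ℤ) = 1 by omega)
    have hirr : IsIrrCharacter G (f 6) := by
      rcases hs.irr 6 with h | h
      · exact h
      · obtain ⟨m, -, hm⟩ := exists_degree_of_isIrr h
        rw [Pi.neg_apply, hz] at hm
        exfalso
        have h2 : (((-1 : ℤ)) : ℂ) = ((m : ℤ) : ℂ) := by push_cast; exact hm
        have := Int.cast_injective h2
        omega
    obtain ⟨μ, hμ⟩ := exists_hom_of_degree_one hirr hz
    have hv : ((μ (D.eight : G) : ℂˣ) : ℂ) = -1 := by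
      rw [← congrFun hμ (D.eight : G), h8 6]
      simp [valTab, irrTab, v2, toC_mk]
    rcases IsSimpleGroup.eq_bot_or_eq_top_of_normal μ.ker (MonoidHom.normal_ker μ) with hb | htop
    · have hker : (D.eight : G) ^ 2 ∈ μ.ker := by
        rw [MonoidHom.mem_ker, map_pow]
        exact Units.ext (by rw [Units.val_pow_eq_pow_val, hv]; norm_num)
      rw [hb, Subgroup.mem_bot] at hker
      have h2 := congrArg D.cover.π (show D.eight ^ 2 = 1 from Subtype.ext (by simpa using hker))
      rw [map_pow, map_one, D.π_eight, eq_iff, idx_one, idx_pow, idx_el] at h2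
      revert h2
      decide +kernel
    · have : (D.eight : G) ∈ μ.ker := htop ▸ Subgroup.mem_top _
      rw [MonoidHom.mem_ker] at this
      rw [this, Units.val_one] at hv
      norm_num at hv
  have P8 : (1 + a) * y = 9 * (a + y) := by
    have key : ((a + y + 1 : ℤ) : ℂ) * (((1 + a) * y - 9 * (a + y) : ℤ) : ℂ) = 0 := by
      push_cast
      field_simp at E
      refine mul_left_cancel₀ a0 ?_
      linear_combination E
    rcases mul_eq_zero.1 key with h | h
    · exact absurd (by have := Int.cast_eq_zero.1 h; omega) hsum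
    · have := Int.cast_eq_zero.1 h
      omega
  have hmul : (a - 8) * (y - 9) = 72 := by linear_combination P8
  have hsmall : (1 ≤ a ∧ a ≤ 16) ∨ (1 ≤ y ∧ y ≤ 17) := by
    have ha : a ≠ 0 := hne 1
    have hy : y ≠ 0 := hne 5
    by_contra hcon
    simp only [not_or, not_and, not_le] at hcon
    rcases (show a ≤ -1 ∨ 17 ≤ a by omega) with h1 | h1 <;>
      rcases (show y ≤ -1 ∨ 18 ≤ y by omega) with h2 | h2 <;> nlinarith
  -- a character of small positive degree in the principal block
  have main : ∀ (j : Fin 8) (k d : ℕ), valTab j 1 = ⟨-(k : ℤ), 0⟩ → valTab j 6 ≠ 0 →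
      degTab a y j = d → 1 ≤ d → j ≠ 0 → k + 16 ≤ d := by
    intro j k d hj hj6 hdj hd1 hj0
    have hj6' : toC (valTab j 6) ≠ 0 := by
      have key : ∀ i : Fin 8, valTab i 6 ≠ 0 →
          valTab i 6 ∈ ([⟨1, 0⟩, ⟨-1, 0⟩, ⟨0, 1⟩, ⟨0, -1⟩] : List R) := by decide +kernel
      have hrt : rt ≠ 0 := fun e => by
        have := rt_mul_rt; rw [e, mul_zero] at this; norm_num at this
      have := key j hj6
      simp only [List.mem_cons, List.not_mem_nil, or_false] at this
      rcases this with e | e | e | e <;> rw [e, toC_mk] <;> simp [hrt]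
    have hirr : IsIrrCharacter G (f j) := by
      rcases hs.irr j with h | h
      · exact h
      · obtain ⟨m, hm1, hm⟩ := exists_degree_of_isIrr h
        rw [Pi.neg_apply, hd, hdj] at hm
        exfalso
        have h2 : ((-(d : ℤ) : ℤ) : ℂ) = ((m : ℤ) : ℂ) := by push_cast at hm ⊢; exact hm
        have := Int.cast_injective h2
        omega
    refine D.degree_bound hM (χ := ⟨f j, hirr⟩) (D.mem_principal hM ?_) ?_ (d := d) (k := k) ?_ ?_ hN
    · show f j D.eight ≠ 0
      rw [h8]
      exact hj6'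
    · intro h
      have h1 := hs.orth j 0
      rw [if_neg hj0] at h1
      have hf : f j = fun _ => (1 : ℂ) := congrArg Subtype.val h
      have hval := h8 j
      have hdeg := hd j
      rw [hf] at hdeg hval
      have ht' := ht1 j hj6'
      rw [hf, hj, toC_mk] at ht'
      simp at ht'
      have : ((1 : ℤ) : ℂ) = ((-(k : ℤ) : ℤ) : ℂ) := by push_cast; exact ht'
      have := Int.cast_injective this
      omega
    · show f j 1 = (d : ℂ)
      rw [hd, hdj, Int.cast_natCast]
    · show f j t = _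
      rw [ht1 j hj6', hj, toC_mk]
      simp
  rcases hsmall with ⟨h1, h2⟩ | ⟨h1, h2⟩
  · have := main 2 2 a.toNat (by decide +kernel) (by decide +kernel)
      (by simp [degTab]; omega) (by omega) (by decide)
    omega
  · have := main 5 3 y.toNat (by decide +kernel) (by decide +kernel)
      (by simp [degTab]; omega) (by omega) (by decide)
    omega

include D in
theorem nonempty_equiv [IsSimpleGroup G] (hone : ∀ x : G, orderOf x = 2 → IsConj t x) :
    Nonempty (Subgroup.centralizer ({t} : Set G) ≃* GL (Fin 2) (ZMod 3)) :=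
  ⟨MulEquiv.ofBijective D.cover.π
    ⟨(MonoidHom.ker_eq_bot_iff _).1 (D.ker_eq_bot hone), D.cover.surj⟩⟩

end FourData

end CfsgLib.SubdegreeThree
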