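import Cfsg.Agent.Lib.Spectrum.M11Graph

/-!
In `M11` the normalizer of a four-group fixes one of the eleven points, so it is not maximal.
-/

set_option autoImplicit false
set_option maxRecDepth 100000
set_option linter.style.haveILetI false
set_option linter.unusedVariables false

open Cfsg

namespace CfsgLib.SubdegreeThree

open CfsgLib.Spectrum.M11G CfsgLib.Plane4.ChainElems CfsgLib.Golay

/-- The common fixed points of two tables among the eleven points. -/
def commonFix (a b : ℕ) : List ℕ := pts.filter fun k => tblAt a k == k && tblAt b k == k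

/-- Commuting distinct involutions have exactly one common fixed point; every point is moved. -/
def fourOK : Bool :=
  ((List.range 165).all fun i => (List.range 165).all fun j =>
    !(adjN i j) || i == j || (commonFix (invTbls[i]!) (invTbls[j]!)).length == 1) &&
  (pts.all fun k => (List.range 165).any fun i => tblAt (invTbls[i]!) k != k)

theorem fourOK_eq : fourOK = true := by decide +kernel

theorem tblI_eq (i : Fin 165) : tblI i = invTbls[i.val]! := by
  rw [tblI, getElem!_pos]

theorem eq_tG {v : MG} (hv : v ≠ 1) (hv2 : v * v = 1) : ∃ i, v = tG i :=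
  (invol_or_small hv).resolve_right fun h => h.1 hv2

/-- A four-group of `M11` fixes exactly one of the eleven points. -/
theorem exists_unique_fixed (V : Subgroup MG) (hV : IsKleinFour V) :
    ∃ q : GolayPt, idx q ∈ pts ∧ (∀ v ∈ V, (v : Equiv.Perm GolayPt) q = q) ∧
      ∀ r : GolayPt, idx r ∈ pts → (∀ v ∈ V, (v : Equiv.Perm GolayPt) r = r) → r = q := by
  classical
  haveI := hV
  haveI : Finite V := Nat.finite_of_card_ne_zero (by rw [IsKleinFour.card_four]; norm_num)
  haveI := Fintype.ofFinite V
  have h4 : Fintype.card V = 4 := by rw [← Nat.card_eq_fintype_card, IsKleinFour.card_four]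
  obtain ⟨a, ha⟩ := Fintype.exists_ne_of_one_lt_card (by omega) (1 : V)
  obtain ⟨b, hb⟩ : ∃ b : V, b ≠ 1 ∧ b ≠ a := by
    by_contra! h
    have : Finset.univ ⊆ ({1, a} : Finset V) := fun x _ => by
      by_cases hx : x = 1
      · simp [hx]
      · simp [h x hx]
    have := (Finset.card_le_card this).trans Finset.card_le_two
    rw [Finset.card_univ, h4] at this
    omega
  have sq : ∀ x : V, x * x = 1 := fun x => IsKleinFour.mul_self x
  have hall : ∀ x : V, x = 1 ∨ x = a ∨ x = b ∨ x = a * b := by
    intro x
    have e : a * b ≠ 1 := fun e => hb.2 (by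
      calc b = (a * a) * b := by rw [sq a, one_mul]
        _ = a := by rw [mul_assoc, e, mul_one])
    have h := Finset.eq_univ_of_card ({1, a, b, a * b} : Finset V) (by
      rw [h4, Finset.card_insert_of_notMem (by simp [Ne.symm ha, Ne.symm hb.1, Ne.symm e]),
        Finset.card_insert_of_notMem (by simp [Ne.symm hb.2, hb.1]),
        Finset.card_insert_of_notMem (by simp [ha]), Finset.card_singleton])
    have := h ▸ Finset.mem_univ x
    simpa using this
  obtain ⟨i, hi⟩ := eq_tG (v := (a : MG)) (fun h => ha (Subtype.ext h)) (congrArg Subtype.val (sq a))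
  obtain ⟨j, hj⟩ := eq_tG (v := (b : MG)) (fun h => hb.1 (Subtype.ext h)) (congrArg Subtype.val (sq b))
  have hij : i ≠ j := fun h => hb.2 (Subtype.ext (by rw [hi, hj, h]))
  have hc : adj i j = true := (adj_iff i j).2 (by
    rw [← hi, ← hj]
    have inv : ∀ x : V, x⁻¹ = x := fun x => inv_eq_of_mul_eq_one_left (sq x)
    exact congrArg Subtype.val (by rw [← inv (a * b), mul_inv_rev, inv a, inv b] : a * b = b * a))
  have hok := fourOK_eq
  simp only [fourOK, Bool.and_eq_true, List.all_eq_true, List.mem_range, Bool.or_eq_true,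
    Bool.not_eq_true', beq_iff_eq] at hok
  have hlen : (commonFix (tblI i) (tblI j)).length = 1 := by
    rw [tblI_eq, tblI_eq]
    refine (hok.1 i.val i.2 j.val j.2).resolve_left fun h => ?_
    rcases h with h | h
    · rw [adj] at hc; rw [h] at hc; exact Bool.noConfusion hc
    · exact hij (Fin.ext h)
  obtain ⟨k, hk⟩ := List.length_eq_one_iff.1 hlen
  have hkmem : k ∈ pts ∧ tblAt (tblI i) k = k ∧ tblAt (tblI j) k = k := by
    have : k ∈ commonFix (tblI i) (tblI j) := by rw [hk]; simp
    simpa [commonFix, List.mem_filter] using this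
  have hk24 : k < 24 := by
    have : ∀ n ∈ pts, n < 24 := by decide
    exact this k hkmem.1
  have fa : ∀ r : GolayPt, tblAt (tblI i) (idx r) = idx r ↔ ((a : MG) : Equiv.Perm GolayPt) r = r := by
    intro r; rw [hi, ← tG_at, idx_injective.eq_iff]
  have fb : ∀ r : GolayPt, tblAt (tblI j) (idx r) = idx r ↔ ((b : MG) : Equiv.Perm GolayPt) r = r := by
    intro r; rw [hj, ← tG_at, idx_injective.eq_iff]
  refine ⟨pt k, by rw [idx_pt hk24]; exact hkmem.1, fun v hv => ?_, fun r hr hfix => ?_⟩
  · have h1 := (fa (pt k)).1 (by rw [idx_pt hk24]; exact hkmem.2.1)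
    have h2 := (fb (pt k)).1 (by rw [idx_pt hk24]; exact hkmem.2.2)
    rcases hall ⟨v, hv⟩ with h | h | h | h <;>
      (replace h := congrArg Subtype.val h; dsimp at h; subst h)
    · rfl
    · exact h1
    · exact h2
    · show ((a : MG) : Equiv.Perm GolayPt) (((b : MG) : Equiv.Perm GolayPt) (pt k)) = pt k
      rw [h2, h1]
  · have : idx r ∈ commonFix (tblI i) (tblI j) := by
      simp only [commonFix, List.mem_filter, Bool.and_eq_true, beq_iff_eq]
      exact ⟨hr, (fa r).2 (hfix a a.2), (fb r).2 (hfix b b.2)⟩
    rw [hk, List.mem_singleton] at this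
    exact idx_injective (this.trans (idx_pt hk24).symm)

/-- A four-group of `M11` has no normalizer of order 24 that is maximal. -/
theorem m11_not_maximal (V : Subgroup MG) (hV : IsKleinFour V)
    (hN : Nat.card (Subgroup.normalizer (V : Set MG)) = 24)
    (hmax : IsCoatom (Subgroup.normalizer (V : Set MG))) : False := by
  classical
  obtain ⟨q, hq, hfix, huniq⟩ := exists_unique_fixed V hV
  set S : Subgroup MG := MulAction.stabilizer MG q
  have hNS : Subgroup.normalizer (V : Set MG) ≤ S := by
    intro n hn
    refine MulAction.mem_stabilizer_iff.2 (huniq _ (pts_inv n q hq) fun v hv => ?_)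
    have h' : n⁻¹ * v * n ∈ V := by
      simpa using (Subgroup.mem_normalizer_iff.1 (inv_mem hn) v).1 hv
    have h := hfix _ h'
    show (v : Equiv.Perm GolayPt) ((n : Equiv.Perm GolayPt) q) = (n : Equiv.Perm GolayPt) q
    conv_rhs => rw [← h]
    simp [Equiv.Perm.mul_apply]
  have hS : S ≠ ⊤ := by
    intro h
    have hok := fourOK_eq
    simp only [fourOK, Bool.and_eq_true, List.all_eq_true, List.any_eq_true, List.mem_range,
      bne_iff_ne] at hok
    obtain ⟨i, hi, hne⟩ := hok.2 _ hq
    apply hne
    have e := tG_at ⟨i, hi⟩ q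
    rw [tblI_eq] at e
    rw [← e]
    have : tG ⟨i, hi⟩ ∈ S := h ▸ Subgroup.mem_top _
    exact congrArg idx (MulAction.mem_stabilizer_iff.1 this)
  have heq : S = Subgroup.normalizer (V : Set MG) :=
    ((eq_or_lt_of_le hNS).resolve_right fun h => hS (hmax.2 S h)).symm
  have hidx : S.index ≤ 11 := by
    rw [MulAction.index_stabilizer]
    have hsub : idx '' MulAction.orbit MG q ⊆ (pts.toFinset : Set ℕ) := by
      rintro _ ⟨_, ⟨g, rfl⟩, rfl⟩
      show idx ((g : Equiv.Perm GolayPt) q) ∈ (pts.toFinset : Set ℕ)
      simp only [Finset.mem_coe, List.mem_toFinset]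
      exact pts_inv g q hq
    rw [← Set.ncard_image_of_injective _ idx_injective]
    refine (Set.ncard_le_ncard hsub (Finset.finite_toSet _)).trans ?_
    rw [Set.ncard_coe_finset]
    decide
  have h := S.card_mul_index
  rw [heq, hN] at h
  rw [heq] at hidx
  rw [card_MG] at h
  omega

/-- The same for any group isomorphic to `M11`. -/
theorem isoM11_not_maximal {G : Type*} [Group G] (hG : Cfsg.Spor.IsoM11 G) (V : Subgroup G)
    (hV : IsKleinFour V) (hN : Nat.card (Subgroup.normalizer (V : Set G)) = 24)
    (hmax : IsCoatom (Subgroup.normalizer (V : Set G))) : False := by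
  obtain ⟨e0⟩ := hG
  let e : G ≃* MG := e0.trans (MulEquiv.subgroupCongr M11_eq)
  have hnorm : Subgroup.normalizer ((V.map e.toMonoidHom : Subgroup MG) : Set MG) =
      (Subgroup.normalizer (V : Set G)).map e.toMonoidHom :=
    (Subgroup.map_equiv_normalizer_eq V e).symm
  haveI := hV
  let ev : V ≃* (V.map e.toMonoidHom : Subgroup MG) := V.equivMapOfInjective _ e.injective
  refine m11_not_maximal (V.map e.toMonoidHom)
    ⟨by rw [← Nat.card_congr ev.toEquiv, IsKleinFour.card_four],
      by rw [← Monoid.exponent_eq_of_mulEquiv ev, IsKleinFour.exponent_two]⟩ ?_ ?_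
  · rw [hnorm, Subgroup.card_map_of_injective e.injective, hN]
  · rw [hnorm]
    exact (OrderIso.isCoatom_iff e.mapSubgroup _).2 hmax

end CfsgLib.SubdegreeThree
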