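import Cfsg.Agent.S3685

/-!
From a suborbit of length three to a maximal core-free subgroup and a conjugate.
-/

set_option autoImplicit false
set_option linter.style.haveILetI false
set_option linter.unusedVariables false

open Subgroup

namespace CfsgLib.SubdegreeThree

/-- The group-theoretic form of a primitive action with a suborbit of length three. -/
theorem exists_pair {G Ω : Type*} [Group G] [Finite G] [MulAction G Ω] [FaithfulSMul G Ω]
    [Finite Ω] (hprim : MulAction.IsPreprimitive G Ω) (a b : Ω)
    (h3 : Nat.card (MulAction.orbit (MulAction.stabilizer G a) b) = 3) :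
    IsCoatom (MulAction.stabilizer G a) ∧ (MulAction.stabilizer G a).normalCore = ⊥ ∧
      ∃ g : G, g ∉ MulAction.stabilizer G a ∧
        (MulAction.stabilizer G a ⊓ (MulAction.stabilizer G a).map
          (MulAut.conj g).toMonoidHom).relIndex (MulAction.stabilizer G a) = 3 := by
  classical
  haveI := hprim
  haveI : Nontrivial Ω := by
    rw [← Finite.one_lt_card_iff_nontrivial]
    have : Nat.card (MulAction.orbit (MulAction.stabilizer G a) b) ≤ Nat.card Ω :=
      Nat.card_le_card_of_injective Subtype.val Subtype.val_injective
    omega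
  set H := MulAction.stabilizer G a with hHdef
  have hba : b ≠ a := by
    rintro rfl
    have h1 : MulAction.orbit H b = {b} := by
      ext x
      constructor
      · rintro ⟨h, rfl⟩; exact h.2
      · rintro rfl; exact MulAction.mem_orbit_self _
    rw [h1] at h3
    simp at h3
  obtain ⟨g, hg⟩ := MulAction.exists_smul_eq G a b
  refine ⟨(MulAction.isCoatom_stabilizer_iff_preprimitive G a).2 hprim, ?_, g,
    fun h => hba (hg.symm.trans h), ?_⟩
  · refine (Subgroup.eq_bot_iff_forall _).2 fun n hn => eq_of_smul_eq_smul (α := Ω) fun x => ?_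
    obtain ⟨t, rfl⟩ := MulAction.exists_smul_eq G a x
    have h : t⁻¹ * n * t⁻¹⁻¹ ∈ H :=
      H.normalCore_le ((inferInstance : H.normalCore.Normal).conj_mem n hn t⁻¹)
    rw [hHdef, MulAction.mem_stabilizer_iff, inv_inv, mul_smul, mul_smul, inv_smul_eq_iff] at h
    rw [one_smul]; exact h
  · have hCb : H.map (MulAut.conj g).toMonoidHom = MulAction.stabilizer G b := by
      rw [← hg, MulAction.stabilizer_smul_eq_stabilizer_map_conj]
    rw [Subgroup.inf_relIndex_left, hCb, ← h3,
      ← Nat.card_congr (MulAction.orbitEquivQuotientStabilizer H b).symm]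
    rfl

end CfsgLib.SubdegreeThree
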