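/-
Facts on semidihedral 2-groups: normal subgroups, involutions and the quotient by the centre.
-/
import Cfsg.Agent.Lib.TwoGroups.QuasiDihedral
import Cfsg.Agent.Lib.TwoGroups.Basic

set_option autoImplicit false

namespace CfsgLib.SubdegreeThree

open CfsgLib.TwoGroups

variable {S : Type*} [Group S] {k : ℕ} {x y : S}

/-- The central involution of a semidihedral group. -/
theorem sd_mid_ne_one (h : SDGen k x y) :
    x ^ ((2 : ℤ) ^ (k + 1)) ≠ 1 ∧ x ^ ((2 : ℤ) ^ (k + 2)) ≠ 1 := by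
  constructor <;>
  · rw [ne_eq, h.zpow_eq_one]
    intro hd
    have h1 := Int.le_of_dvd (by positivity) hd
    have h2 : (2 : ℤ) ^ (k + 1) < 2 ^ (k + 3) := pow_lt_pow_right₀ (by norm_num) (by omega)
    have h3 : (2 : ℤ) ^ (k + 2) < 2 ^ (k + 3) := pow_lt_pow_right₀ (by norm_num) (by omega)
    omega

/-- A power of `x` of exponent not divisible by `2^(k+2)` generates the element of order four. -/
theorem sd_mem_of_zpow_mem (h : SDGen k x y) (N : Subgroup S) {a : ℤ} (ha : x ^ a ∈ N)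
    (hd : ¬ (2 : ℤ) ^ (k + 2) ∣ a) : x ^ ((2 : ℤ) ^ (k + 1)) ∈ N := by
  set m : ℤ := (2 : ℤ) ^ (k + 3) with hm
  have hg : x ^ (Int.gcd a m : ℤ) ∈ N := by
    rw [Int.gcd_eq_gcd_ab, zpow_add, zpow_mul, zpow_mul,
      show x ^ m = 1 from (h.zpow_eq_one _).2 dvd_rfl, one_zpow, mul_one]
    exact zpow_mem ha _
  have hdvd : (Int.gcd a m : ℤ) ∣ (2 : ℤ) ^ (k + 3) := Int.gcd_dvd_right a m
  have hdvd' : Int.gcd a m ∣ 2 ^ (k + 3) := by exact_mod_cast hdvd
  obtain ⟨j, hj, he⟩ := (Nat.dvd_prime_pow Nat.prime_two).1 hdvd'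
  have hjle : j ≤ k + 1 := by
    by_contra hcon
    refine hd (dvd_trans ?_ (Int.gcd_dvd_left a m))
    rw [he]
    push_cast
    exact pow_dvd_pow 2 (by omega)
  obtain ⟨c, hc⟩ : (2 : ℤ) ^ j ∣ 2 ^ (k + 1) := pow_dvd_pow 2 hjle
  rw [hc, zpow_mul]
  refine zpow_mem ?_ c
  rw [he] at hg
  push_cast at hg
  exact hg

/-- A normal subgroup not contained in the centre contains the element of order four. -/
theorem sd_normal_contains (h : SDGen k x y) (N : Subgroup S) [hN : N.Normal]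
    (hne : ∃ g ∈ N, g ≠ 1 ∧ g ≠ x ^ ((2 : ℤ) ^ (k + 2))) : x ^ ((2 : ℤ) ^ (k + 1)) ∈ N := by
  obtain ⟨g, hg, hg1, hg2⟩ := hne
  rcases h.cases g with ⟨a, rfl⟩ | ⟨a, rfl⟩
  · refine sd_mem_of_zpow_mem h N hg fun ⟨c, hc⟩ => ?_
    rcases Int.even_or_odd c with ⟨i, rfl⟩ | ⟨i, rfl⟩
    · exact hg1 ((h.zpow_eq_one _).2 ⟨i, by rw [hc]; ring⟩)
    · exact hg2 ((h.zpow_eq _ _).2 ⟨-i, by rw [hc]; ring⟩)
  · have hm : x ^ (1 : ℤ) * (x ^ a * y) * (x ^ (1 : ℤ))⁻¹ * (x ^ a * y)⁻¹ ∈ N :=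
      mul_mem (hN.conj_mem _ hg _) (inv_mem hg)
    rw [h.conj_mul_by_zpow, h.mul_inv, h.mul_mul] at hm
    refine sd_mem_of_zpow_mem h N hm fun hd => ?_
    have e : a + 1 * (2 - (2 : ℤ) ^ (k + 2)) +
        ((2 : ℤ) ^ (k + 2) - 1) * -(((2 : ℤ) ^ (k + 2) - 1) * a) =
        2 + (2 : ℤ) ^ (k + 2) * (-1 + a * (2 - 2 ^ (k + 2))) := by ring
    rw [e, dvd_add_left (dvd_mul_right _ _)] at hd
    have h1 := Int.le_of_dvd (by norm_num) hd
    have h2 : (2 : ℤ) ^ 2 ≤ 2 ^ (k + 2) := pow_le_pow_right₀ (by norm_num) (by omega)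
    omega

/-- The involutions are the central one and the reflections with even exponent. -/
theorem sd_involution_cases (h : SDGen k x y) {g : S} (hg : orderOf g = 2) :
    g = x ^ ((2 : ℤ) ^ (k + 2)) ∨ ∃ a : ℤ, 2 ∣ a ∧ g = x ^ a * y := by
  have hsq : g ^ 2 = 1 := hg ▸ pow_orderOf_eq_one g
  rcases h.cases g with ⟨a, rfl⟩ | ⟨a, rfl⟩
  · left
    rw [← zpow_natCast, ← zpow_mul, h.zpow_eq_one] at hsq
    obtain ⟨c, hc⟩ := hsq
    have ha : a = (2 : ℤ) ^ (k + 2) * c := by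
      have : (2 : ℤ) * a = 2 * (2 ^ (k + 2) * c) := by
        rw [← mul_assoc, ← pow_succ']
        linear_combination hc
      exact mul_left_cancel₀ two_ne_zero this
    rcases Int.even_or_odd c with ⟨i, rfl⟩ | ⟨i, rfl⟩
    · exfalso
      have : x ^ a = 1 := (h.zpow_eq_one _).2 ⟨i, by rw [ha]; ring⟩
      rw [this, orderOf_one] at hg
      omega
    · exact (h.zpow_eq _ _).2 ⟨-i, by rw [ha]; ring⟩
  · refine Or.inr ⟨a, ?_, rfl⟩
    rw [h.sq_mul, h.zpow_eq_one] at hsq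
    rw [show (2 : ℤ) ^ (k + 3) = 2 * 2 ^ (k + 2) by ring] at hsq
    exact (mul_dvd_mul_iff_right (pow_ne_zero _ two_ne_zero)).1 hsq

theorem sd_mid_central (h : SDGen k x y) :
    x ^ ((2 : ℤ) ^ (k + 2)) ∈ Subgroup.center S := by
  refine Subgroup.mem_center_iff.2 fun g => ?_
  rcases h.cases g with ⟨a, rfl⟩ | ⟨a, rfl⟩
  · rw [← zpow_add, ← zpow_add, add_comm]
  · rw [mul_assoc, h.mul_zpow, ← mul_assoc, ← mul_assoc, ← zpow_add, ← zpow_add]
    congr 1
    refine (h.zpow_eq _ _).2 ⟨1 - 2 ^ (k + 1), ?_⟩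
    ring

theorem sd_center_eq (h : SDGen k x y) {c : S} (hc : orderOf c = 2)
    (hcc : c ∈ Subgroup.center S) : c = x ^ ((2 : ℤ) ^ (k + 2)) := by
  rcases sd_involution_cases h hc with e | ⟨a, -, rfl⟩
  · exact e
  exfalso
  have h1 := Subgroup.mem_center_iff.1 hcc (x ^ (1 : ℤ))
  have h2 : x ^ (1 : ℤ) * (x ^ a * y) * (x ^ (1 : ℤ))⁻¹ = x ^ a * y := by
    rw [h1, mul_inv_cancel_right]
  rw [h.conj_mul_by_zpow, h.zpow_mul_y_eq,
    show a - (a + 1 * (2 - (2 : ℤ) ^ (k + 2))) = 2 ^ (k + 2) - 2 by ring] at h2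
  have h3 : (2 : ℤ) ^ (k + 2) ∣ 2 ^ (k + 2) - 2 := dvd_trans (pow_dvd_pow 2 (by omega)) h2
  rw [dvd_sub_right dvd_rfl] at h3
  have h4 := Int.le_of_dvd (by norm_num) h3
  have h5 : (2 : ℤ) ^ 2 ≤ 2 ^ (k + 2) := pow_le_pow_right₀ (by norm_num) (by omega)
  omega

/-- The image under a map with kernel of order two is dihedral. -/
theorem sd_image_dihedral (h : SDGen k x y) {T : Type*} [Group T] (f : S →* T)
    (hf : Function.Surjective f) (hk : Nat.card f.ker = 2) :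
    Nonempty (T ≃* DihedralGroup (2 ^ (k + 2))) := by
  haveI : Fact (Nat.Prime 2) := ⟨Nat.prime_two⟩
  haveI := h.finite
  haveI : Finite T := Finite.of_surjective f hf
  obtain ⟨c, hc⟩ := exists_prime_orderOf_dvd_card' (G := f.ker) 2 (by rw [hk])
  have hc2 : orderOf (c : S) = 2 := (Subgroup.orderOf_coe c).trans hc
  have hker : Subgroup.zpowers (c : S) = f.ker :=
    Subgroup.eq_of_le_of_card_ge (Subgroup.zpowers_le.2 c.2) (by rw [hk, Nat.card_zpowers, hc2])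
  have hcc : (c : S) ∈ Subgroup.center S := by
    refine Subgroup.mem_center_iff.2 fun g => ?_
    have hm : g * (c : S) * g⁻¹ ∈ Subgroup.zpowers (c : S) := by
      rw [hker]; exact (MonoidHom.normal_ker f).conj_mem _ c.2 g
    obtain ⟨i, hi⟩ := Subgroup.mem_zpowers_iff.1 hm
    rcases Int.even_or_odd i with ⟨j, rfl⟩ | ⟨j, rfl⟩
    · exfalso
      rw [← two_mul, zpow_mul, zpow_ofNat, ← hc2, pow_orderOf_eq_one, one_zpow] at hi
      have := conj_eq_one_iff.1 hi.symm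
      rw [this, orderOf_one] at hc2
      omega
    · rw [zpow_add, zpow_mul, zpow_ofNat, ← hc2, pow_orderOf_eq_one, one_zpow, one_mul,
        zpow_one] at hi
      exact mul_inv_eq_iff_eq_mul.1 hi.symm
  have hz : f (x ^ ((2 : ℤ) ^ (k + 2))) = 1 := by
    rw [← sd_center_eq h hc2 hcc]; exact MonoidHom.mem_ker.1 c.2
  have hcard : Nat.card T = 2 * 2 ^ (k + 2) := by
    have h1 := f.ker.card_mul_index
    rw [Subgroup.index_ker, MonoidHom.range_eq_top.2 hf, Subgroup.card_top, hk, h.card_eq] at h1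
    have : 2 * (2 * 2 ^ (k + 2)) = 2 ^ (k + 4) := by ring
    omega
  have hX : orderOf (f x) = 2 ^ (k + 2) := by
    refine orderOf_eq_prime_pow (fun h1 => ?_) ?_
    · rw [← map_pow, ← MonoidHom.mem_ker, ← hker] at h1
      obtain ⟨i, hi⟩ := Subgroup.mem_zpowers_iff.1 h1
      have h2 : (x ^ 2 ^ (k + 1)) ^ 2 = 1 := by
        rw [← hi, ← zpow_natCast, ← zpow_mul, mul_comm, zpow_mul, zpow_natCast, ← hc2,
          pow_orderOf_eq_one, one_zpow]
      rw [← pow_mul, ← pow_succ, ← zpow_natCast] at h2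
      refine (sd_mid_ne_one h).2 ?_
      push_cast at h2
      exact h2
    · rw [← map_pow]
      rw [← zpow_natCast]
      push_cast
      exact hz
  refine nonempty_mulEquiv_dihedral hX hcard ?_ ?_ ?_ (y := f y)
  · intro hy
    obtain ⟨i, hi⟩ := Subgroup.mem_zpowers_iff.1 hy
    have h1 : x ^ (-i) * y ∈ f.ker := by
      rw [MonoidHom.mem_ker, map_mul, map_zpow, ← hi, ← zpow_add, neg_add_cancel, zpow_zero]
    rw [← hker, sd_center_eq h hc2 hcc] at h1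
    exact h.zpow_mul_y_notMem (-i)
      (Subgroup.zpowers_le.2 (Subgroup.zpow_mem_zpowers x _) h1)
  · rw [← map_pow, h.y_sq, map_one]
  · rw [← map_inv, ← map_inv, ← map_mul, ← map_mul, h.conj_eq, zpow_sub, map_mul, hz, one_mul,
      zpow_one]

end CfsgLib.SubdegreeThree
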